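/-
Collineations of finite projective planes: homologies, fixed subplanes, Baer's dichotomy for
involutions in planes of odd order.
-/
import Mathlib.Combinatorics.Configuration
import Mathlib.GroupTheory.Perm.Cycle.Type

set_option autoImplicit false
set_option linter.unusedSectionVars false

namespace Cfsg.Agent.OVAL

open Configuration Finset
open scoped Classical

/-- The group acts by collineations. -/
class Coll (G P L : Type*) [Membership P L] [SMul G P] [SMul G L] : Prop where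
  mem : ∀ (g : G) (p : P) (l : L), g • p ∈ g • l ↔ p ∈ l

theorem fix_modEq {G X : Type*} [Group G] [MulAction G X] {r : ℕ} (hr : r.Prime) (g : G)
    (s : Finset X) (hs : ∀ x ∈ s, g • x ∈ s) (h : ∀ x ∈ s, g ^ r • x = x) :
    s.card ≡ (s.filter fun x => g • x = x).card [MOD r] := by
  have : Fact r.Prime := ⟨hr⟩
  let f : Function.End s := fun x => ⟨g • x.1, hs _ x.2⟩
  have hf : ∀ (k : ℕ) (x : s), ((f ^ k) x : X) = g ^ k • x.1 := fun k => by
    induction k with
    | zero => intro x; simp [Function.End.one_def]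
    | succ k ih =>
      intro x
      rw [pow_succ', pow_succ', mul_smul, ← ih]; rfl
  have k := Equiv.Perm.card_fixedPoints_modEq (f := f) (p := r) (n := 1) (by
    funext x
    exact Subtype.ext (by rw [pow_one, hf]; exact h _ x.2))
  rw [Fintype.card_coe] at k
  convert k using 1
  rw [← Fintype.card_coe]
  refine Fintype.card_congr ⟨fun x => ⟨⟨x.1, (mem_filter.1 x.2).1⟩,
    Subtype.ext (mem_filter.1 x.2).2⟩, fun x => ⟨x.1.1, mem_filter.2 ⟨x.1.2,
      congrArg Subtype.val x.2⟩⟩, fun _ => rfl, fun _ => rfl⟩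

variable {P L : Type*} [Membership P L] [Fintype P] [Fintype L] [ProjectivePlane P L]
  {G : Type*} [Group G] [MulAction G P] [MulAction G L] [Coll G P L]

local notation "n" => ProjectivePlane.order P L

theorem eq_or {p q : P} {l m : L} (h1 : p ∈ l) (h2 : q ∈ l) (h3 : p ∈ m) (h4 : q ∈ m) :
    p = q ∨ l = m := Nondegenerate.eq_or_eq h1 h2 h3 h4

theorem card_on (l : L) : (univ.filter fun p : P => p ∈ l).card = n + 1 := by
  rw [← ProjectivePlane.pointCount_eq P l, pointCount, Nat.card_eq_fintype_card,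
    Fintype.card_subtype]

variable (L) in
theorem card_thru (p : P) : (univ.filter fun l : L => p ∈ l).card = n + 1 := by
  rw [← ProjectivePlane.lineCount_eq L p, lineCount, Nat.card_eq_fintype_card,
    Fintype.card_subtype]

variable (P L) in
theorem two_le : 2 ≤ n := ProjectivePlane.one_lt_order P L

/-- A point on a line away from two given points. -/
theorem ex_on (l : L) (a b : P) : ∃ p : P, p ∈ l ∧ p ≠ a ∧ p ≠ b := by
  by_contra h
  push Not at h
  have : (univ.filter fun p : P => p ∈ l) ⊆ {a, b} := fun p hp => by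
    by_cases e : p = a
    · simp [e]
    · simp [h p (mem_filter.1 hp).2 e]
  have k := (card_le_card this).trans card_le_two
  rw [card_on] at k
  have := two_le P L
  omega

theorem ex_thru (p : P) (a b : L) : ∃ l : L, p ∈ l ∧ l ≠ a ∧ l ≠ b := by
  by_contra h
  push Not at h
  have : (univ.filter fun l : L => p ∈ l) ⊆ {a, b} := fun l hl => by
    by_cases e : l = a
    · simp [e]
    · simp [h l (mem_filter.1 hl).2 e]
  have k := (card_le_card this).trans card_le_two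
  rw [card_thru] at k
  have := two_le P L
  omega

variable (L) in
theorem ex_line (p q : P) : ∃ l : L, p ∈ l ∧ q ∈ l := by
  by_cases h : p = q
  · obtain ⟨l, -⟩ := Nondegenerate.exists_line (L := L) p
    obtain ⟨m, hm, -⟩ := ex_thru p l l
    exact ⟨m, hm, h ▸ hm⟩
  · exact ⟨_, HasLines.mkLine_ax h⟩

theorem ex_pt (l m : L) : ∃ p : P, p ∈ l ∧ p ∈ m := by
  by_cases h : l = m
  · obtain ⟨p, -⟩ := Nondegenerate.exists_point (P := P) l
    obtain ⟨q, hq, -⟩ := ex_on l p p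
    exact ⟨q, hq, h ▸ hq⟩
  · exact ⟨_, HasPoints.mkPoint_ax h⟩

theorem smul_mem (g : G) {p : P} {l : L} (h : p ∈ l) : g • p ∈ g • l := (Coll.mem g p l).2 h

theorem smul_mem' {g : G} {p : P} {l : L} (h : p ∈ l) (hl : g • l = l) : g • p ∈ l :=
  hl ▸ smul_mem g h

theorem mem_smul' {g : G} {p : P} {l : L} (h : p ∈ l) (hp : g • p = p) : p ∈ g • l :=
  hp ▸ smul_mem g h

theorem fix_line {g : G} {p q : P} {l : L} (hp : g • p = p) (hq : g • q = q) (ne : p ≠ q)
    (h1 : p ∈ l) (h2 : q ∈ l) : g • l = l :=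
  (eq_or (mem_smul' h1 hp) (mem_smul' h2 hq) h1 h2).resolve_left ne

theorem fix_pt {g : G} {p : P} {l m : L} (hl : g • l = l) (hm : g • m = m) (ne : l ≠ m)
    (h1 : p ∈ l) (h2 : p ∈ m) : g • p = p :=
  (eq_or (smul_mem' h1 hl) h1 (smul_mem' h2 hm) h2).resolve_right ne

theorem fix_of_swap {g : G} {p : P} {l : L} (hp : g • g • p = p) (ne : g • p ≠ p)
    (h1 : p ∈ l) (h2 : g • p ∈ l) : g • l = l :=
  (eq_or (smul_mem g h1) (hp ▸ smul_mem g h2 : p ∈ g • l) h2 h1).resolve_left ne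

/-- The action on the lines is determined by the action on the points. -/
theorem line_ext {g h : G} (e : ∀ p : P, g • p = h • p) (l : L) : g • l = h • l := by
  obtain ⟨p, hp, -⟩ := ex_pt (P := P) l l
  obtain ⟨q, hq, ne, -⟩ := ex_on l p p
  refine (eq_or (smul_mem g hq) (smul_mem g hp) (e q ▸ smul_mem h hq)
    (e p ▸ smul_mem h hp)).resolve_left fun k => ne (smul_left_cancel g k)

variable (P) in
/-- `g` induces an involution on the plane. -/
def Inv (g : G) : Prop := (∀ p : P, g • g • p = p) ∧ ∃ p : P, g • p ≠ p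

theorem Inv.line {g : G} (h : Inv P g) (l : L) : g • g • l = l := by
  rw [← mul_smul, line_ext (P := P) (h := 1) (fun p => by rw [mul_smul, h.1, one_smul]), one_smul]

theorem Inv.ex_fix {g : G} (h : Inv P g) {l : L} (ne : g • l ≠ l) :
    ∃ p : P, p ∈ l ∧ g • p = p := by
  obtain ⟨p, h1, h2⟩ := ex_pt (P := P) l (g • l)
  refine ⟨p, h1, (eq_or (smul_mem g h1) h2 ?_ h1).resolve_right ne⟩
  have := smul_mem g h2
  rwa [h.line] at this

/-- `g` is an involutory homology with centre `c` and axis `a`. -/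
structure HA (g : G) (c : P) (a : L) : Prop where
  inv : Inv P g
  nmem : c ∉ a
  cen : ∀ l : L, c ∈ l → g • l = l
  ax : ∀ p : P, p ∈ a → g • p = p

theorem HA.fix_c {g : G} {c : P} {a : L} (h : HA g c a) : g • c = c := by
  obtain ⟨l, hl, -⟩ := ex_thru c a a
  obtain ⟨m, hm, ne, -⟩ := ex_thru c l l
  exact fix_pt (h.cen _ hm) (h.cen _ hl) ne hm hl

theorem HA.fix_a {g : G} {c : P} {a : L} (h : HA g c a) : g • a = a := by
  obtain ⟨p, hp, -⟩ := ex_on a c c
  obtain ⟨q, hq, ne, -⟩ := ex_on a p p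
  exact fix_line (h.ax _ hq) (h.ax _ hp) ne hq hp

theorem HA.of_fix {g : G} {c : P} {a : L} (h : HA g c a) {p : P} (hp : g • p = p) :
    p = c ∨ p ∈ a := by
  by_contra k
  push Not at k
  obtain ⟨u, hu, hu'⟩ := ex_line L p c
  have k1 : ∀ x : P, x ∉ u → g • x = x := fun x hx => by
    obtain ⟨l, hl, hl'⟩ := ex_line L x p
    obtain ⟨m, hm, hm'⟩ := ex_line L x c
    obtain ⟨y, hy, hy'⟩ := ex_pt (P := P) l a
    refine fix_pt (fix_line hp (h.ax _ hy') (fun e => k.2 (e ▸ hy')) hl' hy) (h.cen _ hm') ?_ hl hm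
    rintro rfl
    exact hx ((eq_or hl' hm' hu hu').resolve_left k.1 ▸ hl)
  obtain ⟨x, hx⟩ := h.inv.2
  by_cases e : x ∈ u
  · obtain ⟨l, hl, ne, -⟩ := ex_thru x u u
    obtain ⟨y, hy, y1, -⟩ := ex_on l x x
    obtain ⟨z, hz, z1, z2⟩ := ex_on l x y
    exact hx (fix_pt (fix_line (k1 z fun k => (eq_or hz hl k e).elim z1 ne)
      (k1 y fun k => (eq_or hy hl k e).elim y1 ne) z2 hz hy) (h.cen _ hu') ne hl e)
  · exact hx (k1 x e)

theorem HA.of_fix_line {g : G} {c : P} {a : L} (h : HA g c a) {l : L} (hl : g • l = l) :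
    l = a ∨ c ∈ l := by
  by_contra k
  push Not at k
  have k1 : ∀ p : P, p ∈ l → p ∈ a := fun p hp => by
    obtain ⟨m, hm, hm'⟩ := ex_line L p c
    exact (h.of_fix (fix_pt hl (h.cen _ hm') (fun e => k.2 (e ▸ hm')) hp hm)).resolve_left
      fun e => k.2 (e ▸ hp)
  obtain ⟨p, hp, -⟩ := ex_on l c c
  obtain ⟨q, hq, ne, -⟩ := ex_on l p p
  exact (eq_or hq hp (k1 _ hq) (k1 _ hp)).elim ne k.1

theorem HA.uniq {g : G} {c c' : P} {a a' : L} (h : HA g c a) (h' : HA g c' a') :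
    c' = c ∧ a' = a := by
  obtain ⟨p, hp, p1, -⟩ := ex_on a' c c
  obtain ⟨q, hq, q1, q2⟩ := ex_on a' c p
  have e : a' = a := (eq_or hq hp ((h.of_fix (h'.ax _ hq)).resolve_left q1)
    ((h.of_fix (h'.ax _ hp)).resolve_left p1)).resolve_left q2
  exact ⟨(h.of_fix h'.fix_c).resolve_right (e ▸ h'.nmem), e⟩

theorem Inv.conj {g : G} (h : Inv P g) (x : G) : Inv P (x * g * x⁻¹) := by
  refine ⟨fun p => by simp only [mul_smul, inv_smul_smul, h.1, smul_inv_smul], ?_⟩
  obtain ⟨p, hp⟩ := h.2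
  exact ⟨x • p, fun e => hp (by simpa only [mul_smul, inv_smul_smul, smul_left_cancel_iff] using e)⟩

theorem HA.conj {g : G} {c : P} {a : L} (h : HA g c a) (x : G) :
    HA (x * g * x⁻¹) (x • c) (x • a) where
  inv := h.inv.conj x
  nmem := fun k => h.nmem ((Coll.mem x c a).1 k)
  cen := fun l hl => by
    rw [mul_smul, mul_smul, h.cen _ (by simpa using smul_mem x⁻¹ hl), smul_inv_smul]
  ax := fun p hp => by
    rw [mul_smul, mul_smul, h.ax _ (by simpa using smul_mem x⁻¹ hp), smul_inv_smul]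

theorem HA.fix_of_comm {g x : G} {c : P} {a : L} (h : HA g c a) (e : x * g = g * x) :
    x • c = c ∧ x • a = a := by
  have := h.conj x
  rw [e, mul_inv_cancel_right] at this
  exact h.uniq this

theorem HA.card_lines {g : G} {c : P} {a : L} (h : HA g c a) :
    (univ.filter fun l : L => g • l = l).card = n + 2 := by
  have : (univ.filter fun l : L => g • l = l) = insert a (univ.filter fun l : L => c ∈ l) := by
    ext l
    simp only [mem_filter, mem_univ, true_and, mem_insert]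
    exact ⟨h.of_fix_line, fun k => k.elim (fun e => e ▸ h.fix_a) (h.cen l)⟩
  rw [this, card_insert_of_notMem (by simpa using h.nmem), card_thru]

variable (P L) in
/-- `g` fixes a quadrangle. -/
def Quad (g : G) : Prop := ∃ (a b c d : P) (l m : L), g • a = a ∧ g • b = b ∧ g • c = c ∧
  g • d = d ∧ a ≠ b ∧ c ≠ d ∧ a ∈ l ∧ b ∈ l ∧ c ∈ m ∧ d ∈ m ∧ a ∉ m ∧ b ∉ m ∧ c ∉ l ∧ d ∉ l

theorem quad_of {g : G} (h : ∀ (c : P) (l : L), ∃ p : P, g • p = p ∧ p ≠ c ∧ p ∉ l) :
    Quad P L g := by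
  obtain ⟨p0, -, -, l0, -⟩ := ProjectivePlane.exists_config (P := P) (L := L)
  obtain ⟨a, ha, -⟩ := h p0 l0
  obtain ⟨b, hb, ba, -⟩ := h a l0
  obtain ⟨ab, a1, b1⟩ := ex_line L a b
  obtain ⟨c, hc, -, c1⟩ := h a ab
  obtain ⟨ac, a2, c2⟩ := ex_line L a c
  obtain ⟨bc, b3, c3⟩ := ex_line L b c
  have ca : c ≠ a := fun e => c1 (e ▸ a1)
  have cb : c ≠ b := fun e => c1 (e ▸ b1)
  have b2 : b ∉ ac := fun k => c1 ((eq_or b1 a1 k a2).resolve_left ba ▸ c2)
  have a3 : a ∉ bc := fun k => c1 ((eq_or b1 a1 b3 k).resolve_left ba ▸ c3)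
  have gen : ∀ d : P, g • d = d → d ∉ ab → d ∉ ac → d ∉ bc → Quad P L g := fun d hd d1 d2 d3 => by
    obtain ⟨m, m1, m2⟩ := ex_line L c d
    exact ⟨a, b, c, d, ab, m, ha, hb, hc, hd, ba.symm, fun e => d2 (e ▸ c2), a1, b1, m1, m2,
      fun k => d2 ((eq_or m1 k c2 a2).resolve_left ca ▸ m2),
      fun k => d3 ((eq_or m1 k c3 b3).resolve_left cb ▸ m2), c1, d1⟩
  obtain ⟨d, hd, dc, d1⟩ := h c ab
  by_cases d2 : d ∈ ac
  · have d3 : d ∉ bc := fun k => (eq_or d2 c2 k c3).elim dc fun e => b2 (e ▸ b3)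
    obtain ⟨f, hf, fb, f2⟩ := h b ac
    by_cases f1 : f ∈ ab
    · exact ⟨b, f, c, d, ab, ac, hb, hf, hc, hd, fb.symm, dc.symm, b1, f1, c2, d2, b2, f2, c1, d1⟩
    by_cases f3 : f ∈ bc
    · exact ⟨b, f, a, d, bc, ac, hb, hf, ha, hd, fb.symm, fun e => d1 (e ▸ a1), b3, f3, a2, d2,
        b2, f2, a3, d3⟩
    exact gen f hf f1 f2 f3
  by_cases d3 : d ∈ bc
  · obtain ⟨f, hf, fa, f3⟩ := h a bc
    by_cases f1 : f ∈ ab
    · exact ⟨a, f, c, d, ab, bc, ha, hf, hc, hd, fa.symm, dc.symm, a1, f1, c3, d3, a3, f3, c1, d1⟩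
    by_cases f2 : f ∈ ac
    · exact ⟨a, f, b, d, ac, bc, ha, hf, hb, hd, fa.symm, fun e => d1 (e ▸ b1), a2, f2, b3, d3,
        a3, f3, b2, d2⟩
    exact gen f hf f1 f2 f3
  exact gen d hd d1 d2 d3

/-- Baer's dichotomy. -/
theorem Inv.hom_or_quad (ho : Odd n) {g : G} (h : Inv P g) :
    (∃ (c : P) (a : L), HA g c a) ∨ Quad P L g := by
  refine or_iff_not_imp_right.2 fun hq => ?_
  have k := mt quad_of hq
  push Not at k
  obtain ⟨c, a, k⟩ := k
  have n3 : 3 ≤ n := by have := two_le P L; obtain ⟨r, hr⟩ := ho; omega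
  have nf : ∀ {x : P} {u l : L}, g • x ≠ x → x ∈ u → g • u = u → x ∈ l → l ≠ u → g • l ≠ l :=
    fun hx h1 h2 h3 ne e => hx (fix_pt e h2 ne h3 h1)
  have fa : g • a = a := by
    obtain ⟨x, hx⟩ := h.2
    obtain ⟨u, u1, u2⟩ := ex_line L x (g • x)
    have fu := fix_of_swap (h.1 x) hx u1 u2
    obtain ⟨v, v1, v2⟩ := ex_line L x c
    obtain ⟨l, l1, l2, l3⟩ := ex_thru x u v
    obtain ⟨m, hm⟩ : (((univ.filter fun l : L => x ∈ l).erase u).erase v |>.erase l).Nonempty := by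
      rw [← card_pos]
      have e1 := pred_card_le_card_erase (s := univ.filter fun l : L => x ∈ l) (a := u)
      have e2 := pred_card_le_card_erase (s := (univ.filter fun l : L => x ∈ l).erase u) (a := v)
      have e3 := pred_card_le_card_erase
        (s := ((univ.filter fun l : L => x ∈ l).erase u).erase v) (a := l)
      rw [card_thru] at e1
      omega
    simp only [mem_erase, mem_filter, mem_univ, true_and] at hm
    obtain ⟨y, y1, y2⟩ := h.ex_fix (nf hx u1 fu l1 l2)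
    obtain ⟨z, z1, z2⟩ := h.ex_fix (nf hx u1 fu hm.2.2.2 hm.2.2.1)
    have xc : ∀ {w : P}, g • w = w → x ≠ w := fun hw e => hx (e ▸ hw)
    refine fix_line y2 z2 (fun e => (eq_or l1 y1 hm.2.2.2 (e ▸ z1)).elim (xc y2) hm.1.symm)
      (k _ y2 fun e => (eq_or l1 y1 v1 (e ▸ v2)).elim (xc y2) l3)
      (k _ z2 fun e => (eq_or hm.2.2.2 z1 v1 (e ▸ v2)).elim (xc z2) hm.2.1)
  have ax : ∀ x : P, x ∈ a → g • x = x := fun x hx => by
    by_contra ne
    obtain ⟨l, l1, l2, -⟩ := ex_thru x a a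
    obtain ⟨m, m1, m2, m3⟩ := ex_thru x a l
    obtain ⟨y, y1, y2⟩ := h.ex_fix (nf ne hx fa l1 l2)
    obtain ⟨z, z1, z2⟩ := h.ex_fix (nf ne hx fa m1 m2)
    have xc : ∀ {w : P}, g • w = w → x ≠ w := fun hw e => ne (e ▸ hw)
    have e1 : y = c := by_contra fun e => (eq_or l1 y1 hx (k _ y2 e)).elim (xc y2) l2
    have e2 : z = c := by_contra fun e => (eq_or m1 z1 hx (k _ z2 e)).elim (xc z2) m2
    exact (eq_or m1 z1 l1 (e2 ▸ e1 ▸ y1)).elim (xc z2) m3
  obtain ⟨d, hd, da⟩ : ∃ d : P, g • d = d ∧ d ∉ a := by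
    by_contra e
    push Not at e
    have e1 := fix_modEq Nat.prime_two g (univ : Finset P) (fun _ _ => mem_univ _)
      (fun x _ => by rw [sq, mul_smul, h.1])
    have e2 : (univ.filter fun x : P => g • x = x) = univ.filter fun x : P => x ∈ a :=
      filter_congr fun x _ => ⟨e x, ax x⟩
    rw [e2, card_on, card_univ, ProjectivePlane.card_points P L] at e1
    obtain ⟨r, hr⟩ := ho
    rw [hr, Nat.ModEq] at e1
    ring_nf at e1
    omega
  refine ⟨d, a, h, da, fun l hl => ?_, ax⟩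
  obtain ⟨y, y1, y2⟩ := ex_pt (P := P) l a
  exact fix_line hd (ax _ y2) (fun e => da (e ▸ y2)) hl y1

end Cfsg.Agent.OVAL
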