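/-
The subplane fixed by a planar collineation.
-/
import Cfsg.Agent.OVAL.Plane

set_option autoImplicit false
set_option linter.unusedSectionVars false

namespace Cfsg.Agent.OVAL

open Configuration Finset
open scoped Classical

/-- Fixed elements of `g`. -/
def FP {G : Type*} [Group G] (g : G) (X : Type*) [MulAction G X] := {x : X // g • x = x}

/-- Constructor. -/
def FP.mk {G : Type*} [Group G] {g : G} {X : Type*} [MulAction G X] (x : X) (h : g • x = x) :
    FP g X := ⟨x, h⟩

noncomputable instance {G : Type*} [Group G] (g : G) (X : Type*) [MulAction G X] [Fintype X] :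
    Fintype (FP g X) := Subtype.fintype _

theorem card_FP {G : Type*} [Group G] (g : G) (X : Type*) [MulAction G X] [Fintype X]
    (q : X → Prop) : (univ.filter fun x : FP g X => q x.1).card =
      (univ.filter fun x : X => g • x = x ∧ q x).card := by
  refine card_bij (fun x _ => x.1) (fun x hx => ?_) (fun x _ y _ e => Subtype.ext e)
    fun x hx => ?_
  · exact mem_filter.2 ⟨mem_univ _, x.2, (mem_filter.1 hx).2⟩
  · exact ⟨⟨x, (mem_filter.1 hx).2.1⟩, mem_filter.2 ⟨mem_univ _, (mem_filter.1 hx).2.2⟩, rfl⟩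

variable {P L : Type*} [Membership P L] [Fintype P] [Fintype L] [ProjectivePlane P L]
  {G : Type*} [Group G] [MulAction G P] [MulAction G L] [Coll G P L]

local notation "n" => ProjectivePlane.order P L

instance (g : G) : Membership (FP g P) (FP g L) := ⟨fun l p => p.1 ∈ l.1⟩

theorem FP.mem_iff {g : G} (p : FP g P) (l : FP g L) : p ∈ l ↔ p.1 ∈ l.1 := Iff.rfl

variable (P L) in
/-- Elements whose action commutes with the action of `g`. -/
def Cm (g : G) : Subgroup G where
  carrier := {h | (∀ p : P, h • g • p = g • h • p) ∧ ∀ l : L, h • g • l = g • h • l}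
  one_mem' := ⟨fun p => by simp, fun l => by simp⟩
  mul_mem' := fun {a b} ha hb => ⟨fun p => by rw [mul_smul, mul_smul, hb.1, ha.1],
    fun p => by rw [mul_smul, mul_smul, hb.2, ha.2]⟩
  inv_mem' := fun {a} ha => ⟨fun p => by rw [inv_smul_eq_iff, ha.1, smul_inv_smul],
    fun p => by rw [inv_smul_eq_iff, ha.2, smul_inv_smul]⟩

theorem mem_Cm {g h : G} (e : ∀ p : P, h • g • p = g • h • p) : h ∈ Cm P L g :=
  ⟨e, fun l => by
    rw [← mul_smul, ← mul_smul]
    exact line_ext (P := P) (fun p => by rw [mul_smul, mul_smul, e]) l⟩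

instance cmP (g : G) : MulAction (Cm P L g) (FP g P) where
  smul h p := ⟨h.1 • p.1, by rw [← h.2.1, p.2]⟩
  one_smul p := Subtype.ext (one_smul G p.1)
  mul_smul a b p := Subtype.ext (mul_smul a.1 b.1 p.1)

instance cmL (g : G) : MulAction (Cm P L g) (FP g L) where
  smul h p := ⟨h.1 • p.1, by rw [← h.2.2, p.2]⟩
  one_smul p := Subtype.ext (one_smul G p.1)
  mul_smul a b p := Subtype.ext (mul_smul a.1 b.1 p.1)

theorem cmP_val {g : G} (h : Cm P L g) (p : FP g P) : (h • p).1 = h.1 • p.1 := rfl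

theorem cmL_val {g : G} (h : Cm P L g) (p : FP g L) : (h • p).1 = h.1 • p.1 := rfl

instance (g : G) : Coll (Cm P L g) (FP g P) (FP g L) := ⟨fun h p l => Coll.mem h.1 p.1 l.1⟩

/-- The fixed subplane. -/
@[reducible] noncomputable def fixPlane {g : G} (h : Quad P L g) :
    ProjectivePlane (FP g P) (FP g L) where
  exists_point := fun u => by
    obtain ⟨a, b, c, d, l, m, ha, hb, hc, hd, ab, cd, a1, b1, c1, d1, a2, b2, c2, d2⟩ := h
    by_contra k
    push Not at k
    exact c2 ((eq_or (P := P) (L := L) (k ⟨a, ha⟩) (k ⟨b, hb⟩) a1 b1).resolve_left ab ▸ k ⟨c, hc⟩)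
  exists_line := fun p => by
    obtain ⟨a, b, c, d, l, m, ha, hb, hc, hd, ab, cd, a1, b1, c1, d1, a2, b2, c2, d2⟩ := h
    by_contra k
    push Not at k
    obtain ⟨u, u1, u2⟩ := ex_line L a c
    have ac : a ≠ c := fun e => a2 (e ▸ c1)
    have k1 : p.1 ∈ l := k ⟨l, fix_line ha hb ab a1 b1⟩
    have k2 : p.1 ∈ m := k ⟨m, fix_line hc hd cd c1 d1⟩
    have k3 : p.1 ∈ u := k ⟨u, fix_line ha hc ac u1 u2⟩
    exact (eq_or k1 a1 k3 u1).elim (fun e => a2 (e ▸ k2)) fun e => c2 (e ▸ u2)
  eq_or_eq := fun h1 h2 h3 h4 => (eq_or (P := P) (L := L) h1 h2 h3 h4).imp Subtype.ext Subtype.ext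
  mkPoint := fun {l m} ne => ⟨HasPoints.mkPoint (P := P) (fun e => ne (Subtype.ext e) : l.1 ≠ m.1),
    fix_pt l.2 m.2 (fun e => ne (Subtype.ext e)) (HasPoints.mkPoint_ax _).1
      (HasPoints.mkPoint_ax _).2⟩
  mkPoint_ax := fun {l m} ne =>
    HasPoints.mkPoint_ax (P := P) (fun e => ne (Subtype.ext e) : l.1 ≠ m.1)
  mkLine := fun {p q} ne => ⟨HasLines.mkLine (L := L) (fun e => ne (Subtype.ext e) : p.1 ≠ q.1),
    fix_line p.2 q.2 (fun e => ne (Subtype.ext e)) (HasLines.mkLine_ax _).1
      (HasLines.mkLine_ax _).2⟩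
  mkLine_ax := fun {p q} ne =>
    HasLines.mkLine_ax (L := L) (fun e => ne (Subtype.ext e) : p.1 ≠ q.1)
  exists_config := by
    obtain ⟨a, b, c, d, l, m, ha, hb, hc, hd, ab, cd, a1, b1, c1, d1, a2, b2, c2, d2⟩ := h
    obtain ⟨u, u1, u2⟩ := ex_line L a c
    have ac : a ≠ c := fun e => a2 (e ▸ c1)
    exact ⟨⟨d, hd⟩, ⟨a, ha⟩, ⟨b, hb⟩, ⟨m, fix_line hc hd cd c1 d1⟩, ⟨l, fix_line ha hb ab a1 b1⟩,
      ⟨u, fix_line ha hc ac u1 u2⟩, d2, fun k => (eq_or c1 d1 u2 k).elim cd fun e => a2 (e ▸ u1),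
      a2, a1, u1, b2, b1, fun k => (eq_or a1 b1 u1 k).elim ab fun e => c2 (e ▸ u2)⟩

/-- The order of the fixed subplane. -/
noncomputable def sord {g : G} (h : Quad P L g) : ℕ :=
  letI := fixPlane h
  ProjectivePlane.order (FP g P) (FP g L)

theorem Quad.two_le {g : G} (h : Quad P L g) : 2 ≤ sord h :=
  letI := fixPlane h
  OVAL.two_le (FP g P) (FP g L)

theorem Quad.card_pts {g : G} (h : Quad P L g) :
    (univ.filter fun x : P => g • x = x).card = sord h ^ 2 + sord h + 1 := by
  let _ := fixPlane h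
  have := card_FP g P fun _ => True
  simp only [and_true, filter_true, card_univ] at this
  rw [← this]
  exact ProjectivePlane.card_points (FP g P) (FP g L)

theorem Quad.card_lines {g : G} (h : Quad P L g) :
    (univ.filter fun x : L => g • x = x).card = sord h ^ 2 + sord h + 1 := by
  let _ := fixPlane h
  have := card_FP g L fun _ => True
  simp only [and_true, filter_true, card_univ] at this
  rw [← this]
  exact ProjectivePlane.card_lines (FP g P) (FP g L)

theorem Quad.card_on {g : G} (h : Quad P L g) {l : L} (hl : g • l = l) :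
    (univ.filter fun x : P => g • x = x ∧ x ∈ l).card = sord h + 1 := by
  let _ := fixPlane h
  rw [← card_FP g P fun x => x ∈ l]
  exact OVAL.card_on (P := FP g P) (FP.mk l hl)

theorem Quad.card_thru {g : G} (h : Quad P L g) {p : P} (hp : g • p = p) :
    (univ.filter fun x : L => g • x = x ∧ p ∈ x).card = sord h + 1 := by
  let _ := fixPlane h
  rw [← card_FP g L fun x => p ∈ x]
  exact OVAL.card_thru (FP g L) (FP.mk p hp)

theorem Quad.card_on_le {g : G} (h : Quad P L g) (l : L) :
    (univ.filter fun x : P => g • x = x ∧ x ∈ l).card ≤ sord h + 1 := by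
  by_cases hl : g • l = l
  · exact (h.card_on hl).le
  · refine (card_le_one.2 fun a ha b hb => ?_).trans (by omega)
    by_contra ne
    exact hl (fix_line (mem_filter.1 ha).2.1 (mem_filter.1 hb).2.1 ne (mem_filter.1 ha).2.2
      (mem_filter.1 hb).2.2)

/-- The fixed points of a planar collineation are not covered by two lines. -/
theorem Quad.ex_off {g : G} (h : Quad P L g) (u v : L) : ∃ p : P, g • p = p ∧ p ∉ u ∧ p ∉ v := by
  by_contra k
  push Not at k
  have : (univ.filter fun x : P => g • x = x) ⊆ (univ.filter fun x : P => g • x = x ∧ x ∈ u) ∪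
      univ.filter fun x : P => g • x = x ∧ x ∈ v := fun x hx => by
    have e := (mem_filter.1 hx).2
    by_cases k1 : x ∈ u
    · simp [e, k1]
    · simp [e, k x e k1]
  have e := (card_le_card this).trans (card_union_le _ _)
  have := h.card_on_le u
  have := h.card_on_le v
  have := h.two_le
  rw [h.card_pts] at e
  nlinarith

theorem HA.not_quad {g : G} {c : P} {a : L} (h : HA g c a) : ¬ Quad P L g := fun k => by
  obtain ⟨u, hu, -⟩ := ex_line L c c
  obtain ⟨p, h1, h2, h3⟩ := k.ex_off u a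
  exact (h.of_fix h1).elim (fun e => h2 (e ▸ hu)) h3

/-- A planar involution is a Baer involution. -/
theorem Quad.order_eq {g : G} (h : Quad P L g) (hi : Inv P g) : n = sord h ^ 2 := by
  obtain ⟨x, hx⟩ := hi.2
  obtain ⟨u, u1, u2⟩ := ex_line L x (g • x)
  have fu := fix_of_swap (hi.1 x) hx u1 u2
  have xc : ∀ {w : P}, g • w = w → x ≠ w := fun hw e => hx (e ▸ hw)
  choose f f1 f2 using fun p : P => ex_line L x p
  have k : (univ.filter fun p : P => g • p = p ∧ p ∉ u).card =
      ((univ.filter fun l : L => x ∈ l).erase u).card := by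
    refine card_bij (fun p _ => f p) (fun p hp => ?_) (fun p hp q hq e => ?_) fun l hl => ?_
    · simp only [mem_erase, mem_filter, mem_univ, true_and] at hp ⊢
      exact ⟨fun e => hp.2 (e ▸ f2 p), f1 p⟩
    · simp only [mem_filter, mem_univ, true_and] at hp hq
      by_contra ne
      have := fix_line hp.1 hq.1 ne (f2 p) (e ▸ f2 q)
      exact hx (fix_pt this fu (fun e => hp.2 (e ▸ f2 p)) (f1 p) u1)
    · simp only [mem_erase, mem_filter, mem_univ, true_and] at hl
      obtain ⟨y, y1, y2⟩ := hi.ex_fix (l := l) fun e => hx (fix_pt e fu hl.1 hl.2 u1)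
      refine ⟨y, mem_filter.2 ⟨mem_univ _, y2, fun k => ?_⟩,
        (eq_or (f1 y) (f2 y) hl.2 y1).resolve_left (xc y2)⟩
      exact (eq_or hl.2 y1 u1 k).elim (xc y2) hl.1
  rw [card_erase_of_mem (by simpa using u1), OVAL.card_thru] at k
  have e := card_filter_add_card_filter_not (s := univ.filter fun p : P => g • p = p)
    (fun p => p ∈ u)
  rw [filter_filter, filter_filter, h.card_on fu, k, h.card_pts] at e
  omega

theorem Quad.odd {g : G} (h : Quad P L g) (hi : Inv P g) (ho : Odd n) : Odd (sord h) := by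
  rw [h.order_eq hi] at ho
  exact (Nat.odd_pow_iff two_ne_zero).1 ho

theorem Inv.card_lines_lt (ho : Odd n) {g : G} (h : Inv P g) :
    2 * (univ.filter fun l : L => g • l = l).card < 3 * n + 2 := by
  have n2 := two_le P L
  rcases h.hom_or_quad ho with ⟨c, a, k⟩ | k
  · rw [k.card_lines]
    obtain ⟨r, hr⟩ := ho
    omega
  · obtain ⟨r, hr⟩ := k.odd h ho
    have := k.two_le
    rw [k.card_lines, k.order_eq h]
    have : 3 ≤ sord k := by omega
    nlinarith

end Cfsg.Agent.OVAL
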