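/-
Collineations preserving an oval in a projective plane of odd order.
-/
import Cfsg.Agent.OVAL.Sub

set_option autoImplicit false
set_option linter.unusedSectionVars false

namespace Cfsg.Agent.OVAL

open Configuration Finset
open scoped Classical

variable {P L : Type*} [Membership P L] [Fintype P] [Fintype L] [ProjectivePlane P L]
  {G : Type*} [Group G] [MulAction G P] [MulAction G L] [Coll G P L]

local notation "n" => ProjectivePlane.order P L

variable (G L) in
/-- An invariant oval in a plane of odd order. -/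
structure Ov (O : Finset P) : Prop where
  odd : Odd n
  card : O.card = n + 1
  arc : ∀ l : L, ∀ p ∈ O, ∀ q ∈ O, ∀ r ∈ O, p ∈ l → q ∈ l → r ∈ l → p = q ∨ p = r ∨ q = r
  inv : ∀ g : G, ∀ p ∈ O, g • p ∈ O

/-- `l` is a tangent at `p`. -/
def Tan (O : Finset P) (l : L) (p : P) : Prop := p ∈ l ∧ ∀ q ∈ O, q ∈ l → q = p

/-- Number of fixed points on the oval. -/
noncomputable def fx (O : Finset P) (g : G) : ℕ := (O.filter fun p => g • p = p).card

variable {O : Finset P}

namespace Ov

theorem three_le (h : Ov L G O) : 3 ≤ n := by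
  have := two_le P L
  obtain ⟨r, hr⟩ := h.odd
  omega

theorem ex_tan (h : Ov L G O) {p : P} (hp : p ∈ O) :
    ∃ t : L, Tan O t p ∧ ∀ t' : L, Tan O t' p → t' = t := by
  choose f f1 f2 using fun q : P => ex_line L p q
  have k1 : ((O.erase p).image f).card = n := by
    rw [card_image_of_injOn, card_erase_of_mem hp, h.card]; rfl
    intro q hq r hr e
    simp only [coe_erase, Set.mem_sdiff, mem_coe, Set.mem_singleton_iff] at hq hr
    exact ((h.arc _ _ hp _ hq.1 _ hr.1 (f1 q) (f2 q) (e ▸ f2 r)).resolve_left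
      (Ne.symm hq.2)).resolve_left (Ne.symm hr.2)
  have k2 : (O.erase p).image f ⊆ univ.filter fun l : L => p ∈ l := fun l hl => by
    obtain ⟨q, -, rfl⟩ := mem_image.1 hl
    simp [f1]
  have k3 : ∀ l : L, l ∈ (univ.filter fun l : L => p ∈ l) \ (O.erase p).image f ↔ Tan O l p := by
    intro l
    simp only [mem_sdiff, mem_filter, mem_univ, true_and, mem_image, mem_erase, not_exists, not_and]
    refine and_congr_right fun hl => ⟨fun k q hq hq' => by_contra fun ne => ?_, fun k q hq e => ?_⟩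
    · exact k q ⟨ne, hq⟩ ((eq_or (f1 q) (f2 q) hl hq').resolve_left (Ne.symm ne))
    · exact hq.1 (k q hq.2 (e ▸ f2 q))
  have k4 := card_sdiff_of_subset k2
  rw [k1, card_thru, Nat.add_sub_cancel_left, card_eq_one] at k4
  obtain ⟨t, ht⟩ := k4
  exact ⟨t, (k3 t).1 (ht ▸ mem_singleton_self t), fun t' k => mem_singleton.1 (ht ▸ (k3 t').2 k)⟩

theorem tan_fix (h : Ov L G O) {g : G} {p : P} {t : L} (hp : p ∈ O) (ht : Tan O t p)
    (e : g • p = p) : g • t = t := by
  obtain ⟨u, -, hu⟩ := h.ex_tan hp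
  refine (hu _ ⟨mem_smul' ht.1 e, fun q hq k => ?_⟩).trans (hu t ht).symm
  have := ht.2 _ (h.inv g⁻¹ _ hq) (by simpa using smul_mem g⁻¹ k)
  rw [inv_smul_eq_iff] at this
  rw [this, e]

theorem other (h : Ov L G O) {g : G} {p q : P} {l : L} (hp : p ∈ O) (hq : q ∈ O) (ne : p ≠ q)
    (h1 : p ∈ l) (h2 : q ∈ l) (e : g • l = l) : g • p = p ∨ g • p = q :=
  ((h.arc l _ hp _ hq _ (h.inv g _ hp) h1 h2 (smul_mem' h1 e)).resolve_left ne).imp
    Eq.symm Eq.symm

theorem other_fix (h : Ov L G O) {g : G} {p q : P} {l : L} (hp : p ∈ O) (hq : q ∈ O)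
    (h1 : p ∈ l) (h2 : q ∈ l) (e : g • l = l) (e' : g • q = q) : g • p = p := by
  by_cases ne : p = q
  · rw [ne, e']
  · exact (h.other hp hq ne h1 h2 e).resolve_right fun k => ne (smul_left_cancel g (k.trans e'.symm))

theorem card_on_le (h : Ov L G O) (l : L) : (O.filter fun p => p ∈ l).card ≤ 2 := by
  by_contra k
  obtain ⟨a, b, c, ha, hb, hc, ab, ac, bc⟩ := two_lt_card_iff.1 (not_le.1 k)
  rw [mem_filter] at ha hb hc
  rcases h.arc l _ ha.1 _ hb.1 _ hc.1 ha.2 hb.2 hc.2 with e | e | e <;> contradiction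

theorem ex_off (h : Ov L G O) (l : L) (c : P) : ∃ p ∈ O, p ∉ l ∧ p ≠ c := by
  by_contra k
  push Not at k
  have : O ⊆ insert c (O.filter fun p => p ∈ l) := fun p hp => by
    by_cases e : p ∈ l
    · simp [hp, e]
    · simp [k p hp e]
  have e := (card_le_card this).trans (card_insert_le _ _)
  have := h.card_on_le l
  have := h.three_le
  rw [h.card] at e
  omega

theorem fix_all (h : Ov L G O) {g : G} (e : ∀ p ∈ O, g • p = p) (x : P) : g • x = x := by
  have k : ∀ p ∈ O, ∀ l : L, p ∈ l → g • l = l := fun p hp l hl => by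
    by_cases t : Tan O l p
    · exact h.tan_fix hp t (e p hp)
    · simp only [Tan, hl, true_and, not_forall] at t
      obtain ⟨q, hq, h1, h2⟩ := t
      exact fix_line (e q hq) (e p hp) h2 h1 hl
  obtain ⟨l0, -⟩ := ex_line L x x
  obtain ⟨p, hp, -⟩ := h.ex_off l0 x
  obtain ⟨l, l1, l2⟩ := ex_line L x p
  obtain ⟨q, hq, q1, -⟩ := h.ex_off l x
  obtain ⟨m, m1, m2⟩ := ex_line L x q
  exact fix_pt (k p hp l l2) (k q hq m m2) (fun e => q1 (e ▸ m2)) l1 m1

theorem cen_nmem (h : Ov L G O) {g : G} {c : P} {a : L} (k : HA g c a) : c ∉ O := fun hc => by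
  obtain ⟨p, hp, p1, p2⟩ := h.ex_off a c
  obtain ⟨l, l1, l2⟩ := ex_line L p c
  exact (k.of_fix (h.other_fix hp hc l1 l2 (k.cen _ l2) k.fix_c)).elim p2 p1

theorem mem_ax (h : Ov L G O) {g : G} {c : P} {a : L} (k : HA g c a) {p : P} (hp : p ∈ O)
    (e : g • p = p) : p ∈ a :=
  (k.of_fix e).resolve_left fun e' => h.cen_nmem k (e' ▸ hp)

theorem fx_le (h : Ov L G O) {g : G} {c : P} {a : L} (k : HA g c a) : fx O g ≤ 2 :=
  (card_le_card fun _ hp => mem_filter.2 ⟨(mem_filter.1 hp).1,
    h.mem_ax k (mem_filter.1 hp).1 (mem_filter.1 hp).2⟩).trans (h.card_on_le a)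

theorem same_cen (h : Ov L G O) {g g' : G} {c : P} {a a' : L} (k : HA g c a) (k' : HA g' c a')
    (x : P) : g • x = g' • x := by
  rw [eq_comm, ← inv_smul_eq_iff, ← mul_smul]
  refine h.fix_all (fun p hp => ?_) x
  rw [mul_smul, inv_smul_eq_iff]
  obtain ⟨l, l1, l2⟩ := ex_line L p c
  by_cases t : Tan O l p
  · rw [t.2 _ (h.inv g _ hp) (smul_mem' l1 (k.cen _ l2)),
      t.2 _ (h.inv g' _ hp) (smul_mem' l1 (k'.cen _ l2))]
  · simp only [Tan, l1, true_and, not_forall] at t
    obtain ⟨q, hq, h1, h2⟩ := t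
    have key : ∀ {g : G} {a : L}, HA g c a → g • p = q := fun {g a} k =>
      (h.other hp hq (Ne.symm h2) l1 h1 (k.cen _ l2)).resolve_left fun e => by
        have e' := h.other_fix hq hp h1 l1 (k.cen _ l2) e
        exact k.nmem ((eq_or l1 h1 (h.mem_ax k hp e) (h.mem_ax k hq e')).resolve_left
          (Ne.symm h2) ▸ l2)
    rw [key k, key k']

theorem thru_card (h : Ov L G O) {a b : G} {p : P} (hp : p ∈ O) (ha : a • p = p) (hb : b • p = p) :
    (univ.filter fun l : L => (a • l = l ∧ b • l = l) ∧ p ∈ l).card =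
      (O.filter fun q => a • q = q ∧ b • q = q).card := by
  obtain ⟨t, ht, -⟩ := h.ex_tan hp
  choose f f1 f2 using fun q : P => ex_line L p q
  symm
  refine card_bij (fun q _ => if q = p then t else f q) (fun q hq => ?_) (fun q hq r hr e => ?_)
    fun l hl => ?_
  · simp only [mem_filter, mem_univ, true_and] at hq ⊢
    split_ifs with e
    · exact ⟨⟨h.tan_fix hp ht ha, h.tan_fix hp ht hb⟩, ht.1⟩
    · exact ⟨⟨fix_line hq.2.1 ha e (f2 q) (f1 q), fix_line hq.2.2 hb e (f2 q) (f1 q)⟩, f1 q⟩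
  · simp only [mem_filter] at hq hr
    split_ifs at e with e1 e2 e2
    · rw [e1, e2]
    · exact (e2 (ht.2 r hr.1 (e ▸ f2 r))).elim
    · exact (e1 (ht.2 q hq.1 (e ▸ f2 q))).elim
    · exact ((h.arc _ _ hp _ hq.1 _ hr.1 (f1 q) (f2 q) (e ▸ f2 r)).resolve_left
        (Ne.symm e1)).resolve_left (Ne.symm e2)
  · simp only [mem_filter, mem_univ, true_and] at hl
    by_cases k : Tan O l p
    · obtain ⟨u, -, hu⟩ := h.ex_tan hp
      exact ⟨p, mem_filter.2 ⟨hp, ha, hb⟩, by rw [if_pos rfl, hu _ k, hu _ ht]⟩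
    · simp only [Tan, hl.2, true_and, not_forall] at k
      obtain ⟨q, hq, h1, h2⟩ := k
      exact ⟨q, mem_filter.2 ⟨hq, h.other_fix hq hp h1 hl.2 hl.1.1 ha,
        h.other_fix hq hp h1 hl.2 hl.1.2 hb⟩, by
          rw [if_neg h2]; exact (eq_or (f1 q) (f2 q) hl.2 h1).resolve_left (Ne.symm h2)⟩

theorem fx_quad (h : Ov L G O) {g : G} (k : Quad P L g) (h0 : fx O g ≠ 0) :
    fx O g = sord k + 1 := by
  obtain ⟨p, hp⟩ := card_pos.1 (Nat.pos_of_ne_zero h0)
  rw [mem_filter] at hp
  have := h.thru_card hp.1 hp.2 hp.2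
  simp only [and_self] at this
  rw [fx, ← this, k.card_thru hp.2]

theorem quad_of_fx (h : Ov L G O) {g : G} (hi : Inv P g) (h3 : 3 ≤ fx O g) : Quad P L g :=
  (hi.hom_or_quad h.odd).resolve_left fun ⟨_, _, k⟩ => by have := h.fx_le k; omega

theorem sub (h : Ov L G O) {g : G} (hi : Inv P g) (k : Quad P L g) (h0 : fx O g ≠ 0) :
    letI := fixPlane k
    Ov (FP g L) (Cm P L g) (univ.filter fun p : FP g P => p.1 ∈ O) := by
  let _ := fixPlane k
  refine ⟨k.odd hi h.odd, ?_, fun l p hp q hq r hr h1 h2 h3 => ?_, fun x p hp => ?_⟩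
  · refine Eq.trans ?_ (h.fx_quad k h0)
    refine Eq.trans (by convert card_FP g P fun p => p ∈ O) ?_
    rw [fx]
    congr 1
    ext p
    simp [and_comm]
  · simp only [mem_filter, mem_univ, true_and] at hp hq hr
    exact (h.arc l.1 _ hp _ hq _ hr h1 h2 h3).imp Subtype.ext (Or.imp Subtype.ext Subtype.ext)
  · simp only [mem_filter, mem_univ, true_and] at hp ⊢
    exact h.inv x.1 _ hp

/-- An element acting trivially on the fixed subplane of an involution. -/
theorem triv_sub (h : Ov L G O) {a b : G} (hi : Inv P a) (k : Quad P L a)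
    (e : ∀ p : P, a • p = p → b • p = p) {p : P} (hp : p ∈ O) : b • p = p ∨ b • p = a • p := by
  by_cases e1 : a • p = p
  · exact Or.inl (e p e1)
  obtain ⟨l, l1, l2⟩ := ex_line L p (a • p)
  have := k.card_on (fix_of_swap (hi.1 p) e1 l1 l2)
  have := k.two_le
  obtain ⟨x, hx, y, hy, ne⟩ := one_lt_card.1
    (show 1 < (univ.filter fun x : P => a • x = x ∧ x ∈ l).card by omega)
  simp only [mem_filter, mem_univ, true_and] at hx hy
  exact h.other hp (h.inv a _ hp) (Ne.symm e1) l1 l2 (fix_line (e _ hx.1) (e _ hy.1) ne hx.2 hy.2)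

/-- There is no Klein four-group of Baer involutions meeting the oval. -/
theorem no_klein (h : Ov L G O) {a b : G} (ha : Inv P a) (hb : Inv P b) (hab : Inv P (a * b))
    (c : ∀ p : P, b • a • p = a • b • p) (a3 : 3 ≤ fx O a) (b3 : 3 ≤ fx O b)
    (ab3 : 3 ≤ fx O (a * b)) : False := by
  have qa := h.quad_of_fx ha a3
  have eq : ∀ {x : G}, Inv P x → 3 ≤ fx O x → fx O x = sord qa + 1 := fun hx x3 => by
    have qx := h.quad_of_fx hx x3
    rw [h.fx_quad qx (by omega)]
    exact congrArg (· + 1) (Nat.pow_left_injective two_ne_zero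
      ((qx.order_eq hx).symm.trans (qa.order_eq ha)))
  have m2 := qa.two_le
  let _ := fixPlane qa
  let b' : Cm P L a := ⟨b, mem_Cm c⟩
  have hb' : Inv (FP a P) b' := by
    refine ⟨fun p => Subtype.ext (hb.1 p.1), by_contra fun k => ?_⟩
    push Not at k
    have e : ∀ p : P, a • p = p → b • p = p := fun p hp => congrArg Subtype.val (k (FP.mk p hp))
    have e1 : (O.filter fun p => a • p = p) = O.filter fun p => b • p = p :=
      eq_of_subset_of_card_le (fun p hp => mem_filter.2 ⟨(mem_filter.1 hp).1,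
        e p (mem_filter.1 hp).2⟩) ((eq hb b3).trans (eq ha a3).symm).le
    have e2 : (O.filter fun p => (a * b) • p = p) = O := filter_true_of_mem fun p hp => by
      rcases h.triv_sub ha qa e hp with k | k
      · rw [mul_smul, k]
        exact (mem_filter.1 (e1 ▸ mem_filter.2 ⟨hp, k⟩ : p ∈ O.filter fun p => a • p = p)).2
      · rw [mul_smul, k, ha.1]
    have := eq hab ab3
    rw [fx, e2, h.card, qa.order_eq ha] at this
    nlinarith
  have lt : 2 * (univ.filter fun l : L => a • l = l ∧ b • l = l).card < 3 * sord qa + 2 := by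
    rw [← card_FP a L fun l => b • l = l]
    convert hb'.card_lines_lt (L := FP a L) (qa.odd ha h.odd) using 4 with l
    · exact ⟨fun e => Subtype.ext e, fun e => congrArg Subtype.val e⟩
    · rfl
  set F := univ.filter fun l : L => a • l = l ∧ b • l = l with hF
  set O1 := O.filter fun q => a • q = q ∧ b • q = q with hO1
  have mF : ∀ l, l ∈ F ↔ a • l = l ∧ b • l = l := fun l => by simp [hF]
  have s1 : ∑ p ∈ O, (F.filter fun l => p ∈ l).card = ∑ l ∈ F, (O.filter fun p => p ∈ l).card := by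
    simp only [card_filter]
    exact sum_comm
  have s2 : O1.card ≤ (F.filter fun l => ∃ p ∈ O, Tan O l p).card := by
    have : Nonempty L := ⟨qa.choose_spec.choose_spec.choose_spec.choose_spec.choose⟩
    choose! t ht using fun p (hp : p ∈ O) => h.ex_tan hp
    refine card_le_card_of_injOn t (fun p hp => ?_) fun p hp q hq e => ?_
    · simp only [hO1, coe_filter, Set.mem_ofPred_eq] at hp
      simp only [coe_filter, Set.mem_ofPred_eq, mF]
      exact ⟨⟨h.tan_fix hp.1 (ht p hp.1).1 hp.2.1, h.tan_fix hp.1 (ht p hp.1).1 hp.2.2⟩,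
        p, hp.1, (ht p hp.1).1⟩
    · simp only [hO1, coe_filter, Set.mem_ofPred_eq] at hp hq
      exact (ht q hq.1).1.2 p hp.1 (e ▸ (ht p hp.1).1.1)
  have s3 : ∑ l ∈ F, (O.filter fun p => p ∈ l).card +
      (F.filter fun l => ∃ p ∈ O, Tan O l p).card ≤ 2 * F.card := by
    rw [card_filter, ← sum_add_distrib, mul_comm, ← smul_eq_mul, ← sum_const]
    refine sum_le_sum fun l _ => ?_
    split_ifs with k
    · obtain ⟨p, -, k⟩ := k
      have : (O.filter fun p => p ∈ l).card ≤ 1 := card_le_one.2 fun x hx y hy => by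
        rw [mem_filter] at hx hy
        rw [k.2 x hx.1 hx.2, k.2 y hy.1 hy.2]
      omega
    · exact h.card_on_le l
  have s4 : fx O a + fx O b + fx O (a * b) + O1.card * O1.card ≤
      ∑ p ∈ O, (F.filter fun l => p ∈ l).card + O1.card * 3 := by
    have e : ∀ k : ℕ, O1.card * k = ∑ p ∈ O, if a • p = p ∧ b • p = p then k else 0 := fun k => by
      rw [← sum_filter, sum_const, smul_eq_mul]
    rw [e, e]
    simp only [fx, card_filter, ← sum_add_distrib]
    refine sum_le_sum fun p hp => ?_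
    rw [← card_filter]
    have one : ∀ q : P, p ≠ q → (a • p = p ∧ a • q = q ∨ a • p = q ∧ a • q = p) →
        (b • p = p ∧ b • q = q ∨ b • p = q ∧ b • q = p) →
        1 ≤ (F.filter fun l => p ∈ l).card := fun q ne k1 k2 => by
      obtain ⟨l, l1, l2⟩ := ex_line L p q
      have : ∀ {x : G}, (x • p = p ∧ x • q = q ∨ x • p = q ∧ x • q = p) → x • l = l := by
        rintro x (⟨e1, e2⟩ | ⟨e1, e2⟩)
        · exact fix_line e1 e2 ne l1 l2
        · exact fix_of_swap (by rw [e1, e2]) (e1 ▸ ne.symm) l1 (e1 ▸ l2)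
      exact card_pos.2 ⟨l, mem_filter.2 ⟨(mF l).2 ⟨this k1, this k2⟩, l1⟩⟩
    rw [mul_smul]
    by_cases k1 : a • p = p <;> by_cases k2 : b • p = p
    · have := h.thru_card hp k1 k2
      rw [← filter_filter] at this
      simp only [k1, k2, and_self, if_true]
      have e : (F.filter fun l => p ∈ l).card = O1.card := by convert this
      omega
    · have := one (b • p) (Ne.symm k2) (Or.inl ⟨k1, by rw [← c, k1]⟩) (Or.inr ⟨rfl, hb.1 p⟩)
      have k3 : a • b • p ≠ p := by rwa [← c, k1]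
      simpa [k1, k2, k3] using this
    · have := one (a • p) (Ne.symm k1) (Or.inr ⟨rfl, ha.1 p⟩) (Or.inl ⟨k2, by rw [c, k2]⟩)
      simpa [k1, k2] using this
    · by_cases k3 : a • b • p = p
      · have k4 : b • p = a • p := by rw [← ha.1 (b • p), k3]
        have := one (a • p) (Ne.symm k1) (Or.inr ⟨rfl, ha.1 p⟩) (Or.inr ⟨k4, by rw [c, k3]⟩)
        simpa [k1, k2, k3] using this
      · simp [k1, k2, k3]
  rw [eq ha a3, eq hb b3, eq hab ab3, s1] at s4
  have : 2 * O1.card ≤ O1.card * O1.card + 1 := by nlinarith [sq_nonneg ((O1.card : ℤ) - 1)]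
  omega

end Ov

end Cfsg.Agent.OVAL
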