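/-
Homologies preserving an oval: commuting rules.
-/
import Cfsg.Agent.OVAL.Oval
import Mathlib.GroupTheory.PGroup
import Mathlib.GroupTheory.Index

set_option autoImplicit false
set_option linter.unusedSectionVars false

namespace Cfsg.Agent.OVAL

open Configuration Finset
open scoped Classical

theorem ex_small_orbit {G X : Type*} [Group G] [Finite G] [MulAction G X] {S : Subgroup G}
    (hS : IsPGroup 2 S) (s : Finset X) (hs : ∀ g ∈ S, ∀ x ∈ s, g • x ∈ s) (h4 : ¬ 4 ∣ s.card) :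
    ∃ x ∈ s, ∀ a ∈ S, ∀ b ∈ S, a • x ≠ x → b • x ≠ x → (a * b) • x = x := by
  by_contra k
  push Not at k
  refine h4 ?_
  rw [card_eq_sum_card_fiberwise (f := fun x => (Quotient.mk'' x : MulAction.orbitRel.Quotient S X))
    (t := s.image fun x => (Quotient.mk'' x : MulAction.orbitRel.Quotient S X))
    fun x hx => mem_image_of_mem _ hx]
  refine dvd_sum fun w hw => ?_
  obtain ⟨x, hx, rfl⟩ := mem_image.1 hw
  have e : ((s.filter fun y => (Quotient.mk'' y : MulAction.orbitRel.Quotient S X) =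
      Quotient.mk'' x : Finset X) : Set X) = MulAction.orbit S x := by
    ext y
    simp only [coe_filter, Set.mem_ofPred_eq, Quotient.eq'', MulAction.orbitRel_apply]
    refine ⟨fun h => h.2, fun h => ⟨?_, h⟩⟩
    obtain ⟨g, rfl⟩ := h
    exact hs g g.2 x hx
  rw [← Set.ncard_coe_finset, e, ← MulAction.index_stabilizer]
  obtain ⟨a, ha, b, hb, h1, h2, h3⟩ := k x hx
  obtain ⟨j, hj⟩ := hS.index (MulAction.stabilizer S x)
  rw [hj]
  rcases j with _ | _ | j
  · rw [pow_zero, Subgroup.index_eq_one] at hj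
    exact (h1 (show (⟨a, ha⟩ : S) ∈ MulAction.stabilizer S x from hj ▸ Subgroup.mem_top _)).elim
  · exact (h3 ((Subgroup.mul_mem_iff_of_index_two (H := MulAction.stabilizer S x) hj
      (a := ⟨a, ha⟩) (b := ⟨b, hb⟩)).2 (iff_of_false h1 h2))).elim
  · exact ⟨2 ^ j, by ring⟩

variable {P L : Type*} [Membership P L] [Fintype P] [Fintype L] [ProjectivePlane P L]
  {G : Type*} [Group G] [MulAction G P] [MulAction G L] [Coll G P L] [FaithfulSMul G P]
  {O : Finset P}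

local notation "n" => ProjectivePlane.order P L

variable (P L) in
/-- `g` is an involutory homology. -/
def IsH (g : G) : Prop := ∃ (c : P) (a : L), HA g c a

variable (P) in
theorem inv_of {g : G} (h1 : g * g = 1) (h2 : g ≠ 1) : Inv P g :=
  ⟨fun p => by rw [← mul_smul, h1, one_smul], by_contra fun k => h2 (by
    push Not at k
    exact eq_of_smul_eq_smul fun p : P => by rw [k, one_smul])⟩

theorem Inv.sq {g : G} (h : Inv P g) : g * g = 1 :=
  eq_of_smul_eq_smul fun p : P => by rw [mul_smul, h.1, one_smul]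

theorem Inv.ne {g : G} (h : Inv P g) : g ≠ 1 := by
  rintro rfl
  obtain ⟨p, hp⟩ := h.2
  exact hp (one_smul _ _)

theorem inv_mul {g g' : G} (h : Inv P g) (h' : Inv P g') (c : g * g' = g' * g) (ne : g ≠ g') :
    Inv P (g * g') :=
  inv_of P (by rw [mul_assoc, ← mul_assoc g', ← c, mul_assoc, h'.sq, mul_one, h.sq]) fun e =>
    ne (by rw [eq_inv_of_mul_eq_one_left e, inv_eq_of_mul_eq_one_left h'.sq])

namespace Ov

theorem eq_of_cen (h : Ov L G O) {g g' : G} {c : P} {a a' : L} (k : HA g c a) (k' : HA g' c a') :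
    g = g' := eq_of_smul_eq_smul (h.same_cen k k')

theorem cen_mem (h : Ov L G O) {g g' : G} {c c' : P} {a a' : L} (k : HA g c a) (k' : HA g' c' a')
    (e : g * g' = g' * g) (ne : g ≠ g') : c' ∈ a :=
  (k.of_fix (k'.fix_of_comm e).1).resolve_left fun e' => ne (h.eq_of_cen k (e' ▸ k'))

theorem eq_of_ax (h : Ov L G O) {g g' : G} {c c' : P} {a : L} (k : HA g c a) (k' : HA g' c' a) :
    g = g' := by
  by_contra ne
  refine k'.nmem (h.cen_mem k k' ?_ ne)
  have f : ∀ p ∈ a, (g * g') • p = p := fun p hp => by rw [mul_smul, k'.ax p hp, k.ax p hp]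
  have : g * g' * (g * g') = 1 := eq_of_smul_eq_smul fun x : P => by
    rw [one_smul]
    refine h.fix_all (fun p hp => ?_) x
    rw [mul_smul]
    by_cases e : (g * g') • p = p
    · rw [e, e]
    obtain ⟨l, l1, l2⟩ := ex_line L p ((g * g') • p)
    obtain ⟨y, y1, y2⟩ := ex_pt (P := P) l a
    have e1 : (g * g') • l = l := (eq_or (smul_mem _ l1) (mem_smul' y1 (f y y2)) l2 y1).resolve_left
      fun e1 => e (smul_left_cancel (g * g') (by rw [e1, f y y2]))
    exact (h.other (h.inv _ _ hp) hp e l2 l1 e1).resolve_left fun e2 => e (smul_left_cancel _ e2)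
  rw [← mul_inv_eq_one, _root_.mul_inv_rev, inv_eq_of_mul_eq_one_left k.inv.sq,
    inv_eq_of_mul_eq_one_left k'.inv.sq, this]

theorem mul_isH (h : Ov L G O) {g g' : G} (k : IsH P L g) (k' : IsH P L g')
    (e : g * g' = g' * g) (ne : g ≠ g') : IsH P L (g * g') := by
  obtain ⟨c, a, k⟩ := k
  obtain ⟨c', a', k'⟩ := k'
  refine ((inv_mul k.inv k'.inv e ne).hom_or_quad h.odd).resolve_right fun q => ?_
  obtain ⟨u, u1, u2⟩ := ex_line L c c'
  obtain ⟨x, x1, x2, x3⟩ := q.ex_off a u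
  have e1 : g' • x = g • x := by rw [← k.inv.1 (g' • x), ← mul_smul g g', x1]
  have cc : c ≠ c' := fun e' => k.nmem (e' ▸ h.cen_mem k k' e ne)
  have n1 : g • x ≠ x := fun e' => (k.of_fix e').elim (fun e => x3 (e ▸ u1)) x2
  obtain ⟨l, l1, l2⟩ := ex_line L x c
  obtain ⟨m, m1, m2⟩ := ex_line L x c'
  have : l = m := (eq_or (smul_mem' l1 (k.cen _ l2)) l1 (e1 ▸ smul_mem' m1 (k'.cen _ m2))
    m1).resolve_left n1
  exact x3 ((eq_or l2 (this ▸ m2) u1 u2).resolve_left cc ▸ l1)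

theorem lemB (h : Ov L G O) {a b r r' : G} (ha : IsH P L a) (hb : IsH P L b) (hr : IsH P L r)
    (hr' : IsH P L r') (ab : a ≠ b) (ar : a ≠ r) (br : b ≠ r) (ar' : a ≠ r') (br' : b ≠ r')
    (c1 : a * r = r * a) (c2 : b * r = r * b) (c3 : a * r' = r' * a) (c4 : b * r' = r' * b) :
    r = r' := by
  obtain ⟨_, _, ha⟩ := ha
  obtain ⟨_, _, hb⟩ := hb
  obtain ⟨_, _, hr⟩ := hr
  obtain ⟨_, _, hr'⟩ := hr'
  rcases eq_or (h.cen_mem ha hr c1 ar) (h.cen_mem ha hr' c3 ar') (h.cen_mem hb hr c2 br)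
    (h.cen_mem hb hr' c4 br') with rfl | rfl
  · exact h.eq_of_cen hr hr'
  · exact (ab (h.eq_of_ax ha hb)).elim

/-- The triangle of a Klein four-group of homologies. -/
theorem tri (h : Ov L G O) {a b : G} (ha : IsH P L a) (hb : IsH P L b) (e : a * b = b * a)
    (ne : a ≠ b) : ∃ (c1 c2 c3 : P) (a1 a2 a3 : L), HA a c1 a1 ∧ HA b c2 a2 ∧ HA (a * b) c3 a3 ∧
      c2 ∈ a1 ∧ c3 ∈ a1 ∧ c1 ∈ a2 ∧ c3 ∈ a2 ∧ c1 ∈ a3 ∧ c2 ∈ a3 := by
  obtain ⟨c3, a3, k3⟩ := h.mul_isH ha hb e ne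
  obtain ⟨c1, a1, k1⟩ := ha
  obtain ⟨c2, a2, k2⟩ := hb
  have e1 : a * (a * b) = a * b * a := by rw [mul_assoc, e]
  have e2 : b * (a * b) = a * b * b := by rw [← mul_assoc, e]
  have n1 : a ≠ a * b := fun k => k2.inv.ne (left_eq_mul.1 k)
  have n2 : b ≠ a * b := fun k => k1.inv.ne (right_eq_mul.1 k)
  exact ⟨c1, c2, c3, a1, a2, a3, k1, k2, k3, h.cen_mem k1 k2 e ne, h.cen_mem k1 k3 e1 n1,
    h.cen_mem k2 k1 e.symm ne.symm, h.cen_mem k2 k3 e2 n2, h.cen_mem k3 k1 e1.symm n1.symm,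
    h.cen_mem k3 k2 e2.symm n2.symm⟩

theorem no_common (h : Ov L G O) {a b : G} (ha : IsH P L a) (hb : IsH P L b) (e : a * b = b * a)
    (ne : a ≠ b) {p : P} (hp : p ∈ O) (h1 : a • p = p) (h2 : b • p = p) : False := by
  obtain ⟨c1, c2, c3, a1, a2, a3, k1, k2, k3, -, m1, m2, m3, -⟩ := h.tri ha hb e ne
  exact (eq_or m1 (h.mem_ax k1 hp h1) m3 (h.mem_ax k2 hp h2)).elim
    (fun e => h.cen_nmem k3 (e ▸ hp)) fun e => k1.nmem (e ▸ m2)

/-- Involutions of a perfect group act evenly on the oval. -/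
theorem par (h : Ov L G O) (hp : ∀ f : G →* ℤˣ, f = 1) {g : G} (hg : g * g = 1) :
    fx O g % 4 = (n + 1) % 4 := by
  let _ : MulAction G O :=
    { smul := fun g p => ⟨g • p.1, h.inv g _ p.2⟩
      one_smul := fun p => Subtype.ext (one_smul G p.1)
      mul_smul := fun a b p => Subtype.ext (mul_smul a b p.1) }
  have e := DFunLike.congr_fun (hp (Equiv.Perm.sign.comp (MulAction.toPermHom G O))) g
  rw [MonoidHom.comp_apply, Equiv.Perm.sign_of_pow_two_eq_one (by
    rw [← map_pow, sq, hg, map_one]), MonoidHom.one_apply, Fintype.card_coe, h.card] at e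
  have e1 : Fintype.card (Function.fixedPoints (MulAction.toPermHom G O g)) = fx O g := by
    rw [fx, ← Fintype.card_coe]
    exact Fintype.card_congr ⟨fun x => ⟨x.1.1, mem_filter.2 ⟨x.1.2, congrArg Subtype.val x.2⟩⟩,
      fun x => ⟨⟨x.1, (mem_filter.1 x.2).1⟩, Subtype.ext (mem_filter.1 x.2).2⟩,
      fun _ => rfl, fun _ => rfl⟩
  rw [e1, neg_one_pow_eq_one_iff_even (by decide)] at e
  have e2 := fix_modEq Nat.prime_two g O (h.inv g) fun x _ => by rw [sq, hg, one_smul]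
  have e3 : fx O g ≤ O.card := card_filter_le _ _
  rw [h.card] at e2 e3
  obtain ⟨r, hr⟩ := e
  change (n + 1) % 2 = fx O g % 2 at e2
  omega

theorem baer (h : Ov L G O) (hp : ∀ f : G →* ℤˣ, f = 1) {g : G} (hg : Inv P g)
    (k : ¬ IsH P L g) : n % 4 = 1 ∧ 3 ≤ fx O g := by
  have q := (hg.hom_or_quad h.odd).resolve_left k
  obtain ⟨r, hr⟩ := q.odd hg h.odd
  have e := q.order_eq hg
  have e1 : n % 4 = 1 := by
    rw [e, hr, show (2 * r + 1) ^ 2 = 1 + 4 * (r ^ 2 + r) by ring, Nat.add_mul_mod_self_left]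
  have := h.par hp hg.sq
  have := h.fx_quad q (by omega)
  have := q.two_le
  omega

theorem mul_baer (h : Ov L G O) (hp : ∀ f : G →* ℤˣ, f = 1) {a b : G} (ha : Inv P a)
    (hb : Inv P b) (e : a * b = b * a) (ne : a ≠ b) (ka : ¬ IsH P L a) (kb : ¬ IsH P L b) :
    IsH P L (a * b) := by_contra fun k =>
  h.no_klein ha hb (inv_mul ha hb e ne) (fun p => by rw [← mul_smul, ← e, mul_smul])
    (h.baer hp ha ka).2 (h.baer hp hb kb).2 (h.baer hp (inv_mul ha hb e ne) k).2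

theorem fx_hom (h : Ov L G O) (hp : ∀ f : G →* ℤˣ, f = 1) {g : G} (k : IsH P L g) :
    n % 4 = 1 ∧ fx O g = 2 ∨ n % 4 = 3 ∧ fx O g = 0 := by
  obtain ⟨c, a, k⟩ := k
  have := h.fx_le k
  have := h.par hp k.inv.sq
  obtain ⟨r, hr⟩ := h.odd
  omega

theorem lemC [Finite G] (h : Ov L G O) (hp : ∀ f : G →* ℤˣ, f = 1) {a b x : G} (ha : IsH P L a)
    (hb : IsH P L b) (e : a * b = b * a) (ne : a ≠ b) (hx : x * x = a) (c : x * b = b * x) :
    False := by
  have cx : x * a = a * x := by rw [← hx, mul_assoc]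
  have x4 : IsPGroup 2 (Subgroup.zpowers x) := by
    obtain ⟨_, _, ha⟩ := ha
    have : orderOf x ∣ 2 ^ 2 := orderOf_dvd_of_pow_eq_one (by
      rw [show 2 ^ 2 = 2 * 2 from rfl, pow_mul, sq x, hx, sq, ha.inv.sq])
    obtain ⟨j, -, hj⟩ := (Nat.dvd_prime_pow Nat.prime_two).1 this
    exact IsPGroup.of_card ((Nat.card_zpowers x).trans hj)
  have cz : ∀ {y : G}, x * y = y * x → ∀ g ∈ Subgroup.zpowers x, g * y = y * g := by
    rintro y hy _ ⟨k, rfl⟩
    exact (Commute.zpow_left hy k).eq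
  have fin : ∀ s : Finset P, (∀ g ∈ Subgroup.zpowers x, ∀ y ∈ s, g • y ∈ s) → ¬ 4 ∣ s.card →
      ∃ y ∈ s, a • y = y := fun s h1 h2 => by
    obtain ⟨y, hy, k⟩ := ex_small_orbit x4 s h1 h2
    refine ⟨y, hy, ?_⟩
    by_cases e : x • y = y
    · rw [← hx, mul_smul, e, e]
    · exact hx ▸ k x (Subgroup.mem_zpowers x) x (Subgroup.mem_zpowers x) e e
  rcases h.fx_hom hp hb with ⟨-, k⟩ | ⟨k, -⟩
  · obtain ⟨y, hy, k'⟩ := fin (O.filter fun p => b • p = p) (fun g hg y hy => by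
      rw [mem_filter] at hy ⊢
      exact ⟨h.inv g _ hy.1, by rw [← mul_smul, ← cz c g hg, mul_smul, hy.2]⟩)
      (by rw [← fx, k]; decide)
    exact h.no_common ha hb e ne (mem_filter.1 hy).1 k' (mem_filter.1 hy).2
  · obtain ⟨c1, c2, c3, a1, a2, a3, k1, k2, k3, -, m1, m2, m3, -⟩ := h.tri ha hb e ne
    have n13 : c3 ≠ c1 := fun e => k1.nmem (e ▸ m1)
    obtain ⟨y, hy, k'⟩ := fin (((univ.filter fun p : P => p ∈ a2).erase c1).erase c3)
      (fun g hg y hy => by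
        simp only [mem_erase, mem_filter, mem_univ, true_and] at hy ⊢
        have f1 := (k1.fix_of_comm (cz cx g hg)).1
        have f3 := (k3.fix_of_comm (cz (y := a * b) (by
          rw [← mul_assoc, cx, mul_assoc, c, mul_assoc]) g hg)).1
        exact ⟨fun e => hy.1 (smul_left_cancel g (e.trans f3.symm)),
          fun e => hy.2.1 (smul_left_cancel g (e.trans f1.symm)),
          smul_mem' hy.2.2 (k2.fix_of_comm (cz c g hg)).2⟩)
      (by
        rw [card_erase_of_mem (by simp [n13, m3]), card_erase_of_mem (by simp [m2]), card_on]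
        omega)
    simp only [mem_erase, mem_filter, mem_univ, true_and] at hy
    exact (eq_or ((k1.of_fix k').resolve_left hy.2.1) m1 hy.2.2 m3).elim hy.1
      fun e => k1.nmem (e ▸ m2)

theorem quad_of_comm (h : Ov L G O) (hp : ∀ f : G →* ℤˣ, f = 1) {a b g : G} (ha : IsH P L a)
    (hb : IsH P L b) (e : a * b = b * a) (ne : a ≠ b) {r : ℕ} (hr : r.Prime) (r2 : r ≠ 2)
    (hg : g ^ r = 1) (ca : g * a = a * g) (cb : g * b = b * g) : Quad P L g := by
  have r3 : 3 ≤ r := by have := hr.two_le; omega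
  have md : ∀ s : Finset P, (∀ x ∈ s, g • x ∈ s) →
      s.card ≡ (s.filter fun x => g • x = x).card [MOD r] := fun s hs =>
    fix_modEq hr g s hs fun x _ => by rw [hg, one_smul]
  obtain ⟨c1, c2, c3, a1, a2, a3, k1, k2, k3, m0, m1, m2, m3, m4, m5⟩ := h.tri ha hb e ne
  obtain ⟨f1, g1⟩ := k1.fix_of_comm ca
  obtain ⟨f2, g2⟩ := k2.fix_of_comm cb
  obtain ⟨f3, g3⟩ := k3.fix_of_comm (x := g) (by rw [← mul_assoc, ca, mul_assoc, cb, mul_assoc])
  rcases h.fx_hom hp ha with ⟨n1, -⟩ | ⟨n3, -⟩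
  · have two : ∀ {a : G} {c1 : P} {a1 : L}, HA a c1 a1 → g * a = a * g →
        ∃ p ∈ O, ∃ q ∈ O, p ≠ q ∧ p ∈ a1 ∧ q ∈ a1 ∧ g • p = p ∧ g • q = q := fun {a _ _} k ca => by
      have e1 : fx O a = 2 := ((h.fx_hom hp ⟨_, _, k⟩).resolve_right (by omega)).2
      have e2 := md (O.filter fun p => a • p = p) fun y hy => by
        rw [mem_filter] at hy ⊢
        exact ⟨h.inv g _ hy.1, by rw [← mul_smul, ← ca, mul_smul, hy.2]⟩
      have e3 := card_filter_le (O.filter fun p => a • p = p) fun x => g • x = x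
      rw [fx] at e1
      rw [e1] at e2 e3
      have e4 := Nat.ModEq.eq_of_lt_of_lt e2 (by omega) (by omega)
      obtain ⟨p, hp, q, hq, ne⟩ := one_lt_card.1 (e4 ▸ one_lt_two)
      simp only [mem_filter] at hp hq
      exact ⟨p, hp.1.1, q, hq.1.1, ne, h.mem_ax k hp.1.1 hp.1.2, h.mem_ax k hq.1.1 hq.1.2,
        hp.2, hq.2⟩
    obtain ⟨p, hp, q, hq, d1, p1, q1, p2, q2⟩ := two k1 ca
    obtain ⟨p', hp', q', hq', d2, p1', q1', p2', q2'⟩ := two k2 cb
    have nc : ∀ {x : P}, x ∈ O → x ∈ a1 → x ∈ a2 → False := fun hx h1 h2 =>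
      h.no_common ha hb e ne hx (k1.ax _ h1) (k2.ax _ h2)
    exact ⟨p, q, p', q', a1, a2, p2, q2, p2', q2', d1, d2, p1, q1, p1', q1', nc hp p1, nc hq q1,
      fun k => nc hp' k p1', fun k => nc hq' k q1'⟩
  have n23 : c2 ≠ c3 := fun e => k2.nmem (e ▸ m3)
  have n13 : c1 ≠ c3 := fun e => k1.nmem (e ▸ m1)
  have n12 : c1 ≠ c2 := fun e => k1.nmem (e ▸ m0)
  by_cases hd : r ∣ n + 1
  · have ex : ∀ {l : L} {x y : P}, g • l = l → x ∈ l → g • x = x →
        ∃ z ∈ l, g • z = z ∧ z ≠ x ∧ z ≠ y := fun {l x y} hl hx fx => by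
      have e2 := md (univ.filter fun p : P => p ∈ l) fun y hy => by
        simp only [mem_filter, mem_univ, true_and] at hy ⊢
        exact smul_mem' hy hl
      rw [card_on] at e2
      have e3 := Nat.le_of_dvd (card_pos.2 ⟨x, by simp [hx, fx]⟩) ((e2.dvd_iff dvd_rfl).1 hd)
      by_contra k
      push Not at k
      have : ((univ.filter fun p : P => p ∈ l).filter fun x => g • x = x) ⊆ {x, y} := fun z hz => by
        simp only [mem_filter, mem_univ, true_and] at hz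
        by_cases e : z = x
        · simp [e]
        · simp [k z hz.1 hz.2 e]
      have := (card_le_card this).trans card_le_two
      omega
    obtain ⟨x, x1, x2, x3, x4⟩ := ex (y := c3) g1 m0 f2
    obtain ⟨y, y1, y2, y3, y4⟩ := ex (y := c3) g2 m2 f1
    have a12 : a1 ≠ a2 := fun e => k1.nmem (e ▸ m2)
    exact ⟨c2, x, c1, y, a1, a2, f2, x2, f1, y2, x3.symm, y3.symm, m0, x1, m2, y1, k2.nmem,
      fun k => (eq_or x1 m1 k m3).elim x4 a12, k1.nmem, fun k => (eq_or k m1 y1 m3).elim y4 a12⟩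
  · have e2 := md O (h.inv g)
    rw [h.card] at e2
    obtain ⟨p, hp'⟩ := card_pos.1 (Nat.pos_of_ne_zero fun e =>
      hd ((e2.dvd_iff dvd_rfl).2 (e ▸ dvd_zero r)))
    rw [mem_filter] at hp'
    have off : ∀ {a : G} {c1 : P} {a1 : L}, HA a c1 a1 → p ∉ a1 := fun {a _ _} k k' => by
      have e1 : fx O a = 0 := ((h.fx_hom hp ⟨_, _, k⟩).resolve_left (by omega)).2
      exact card_ne_zero_of_mem (s := O.filter fun p => a • p = p)
        (mem_filter.2 ⟨hp'.1, k.ax _ k'⟩) e1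
    obtain ⟨m, l1, l2⟩ := ex_line L p c1
    exact ⟨c2, c3, p, c1, a1, m, f2, f3, hp'.2, f1, n23, fun e => off k2 (e ▸ m2), m0, m1, l1, l2,
      fun k => off k3 ((eq_or l2 k m4 m5).resolve_left n12 ▸ l1),
      fun k => off k2 ((eq_or l2 k m2 m3).resolve_left n13 ▸ l1), off k1, k1.nmem⟩

theorem comm_of_quad (h : Ov L G O) {g t : G} (q : Quad P L g) (ht : IsH P L t)
    (e : t * g * t = g⁻¹) : g * t = t * g := by
  obtain ⟨z, a, k⟩ := ht
  have fz : g • z = z := by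
    by_contra ne
    have key : ∀ {x : P} {u : L}, g • x = x → x ∉ a → x ∈ u → z ∈ u → g • u = u :=
      fun {x u} hx xa xu zu => by
        refine fix_line hx ?_ (fun e => ?_) xu (smul_mem' xu (k.cen _ zu))
        · rw [← k.inv.1 (g • t • x), ← mul_smul t g, ← mul_smul (t * g), e,
            inv_smul_eq_iff.2 hx.symm]
        · exact (k.of_fix e.symm).elim (fun e => ne (e ▸ hx)) xa
    obtain ⟨x, x1, x2, -⟩ := q.ex_off a a
    obtain ⟨u, u1, u2⟩ := ex_line L x z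
    obtain ⟨y, y1, y2, y3⟩ := q.ex_off a u
    obtain ⟨v, v1, v2⟩ := ex_line L y z
    exact ne (fix_pt (key x1 x2 u1 u2) (key y1 y2 v1 v2) (fun e => y3 (e ▸ v1)) u2 v2)
  have := k.conj g
  rw [fz] at this
  rw [← mul_inv_eq_iff_eq_mul, h.eq_of_cen this k]

end Ov

end Cfsg.Agent.OVAL
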