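/-
The group-theoretic data extracted from an invariant oval when Baer involutions occur.
-/
import Cfsg.Agent.OVAL.Hom
import Cfsg.Agent.H1.UniqueSub

set_option autoImplicit false
set_option linter.unusedSectionVars false

namespace Cfsg.Agent.OVAL

open Configuration Finset
open scoped Classical

/-- Properties of the class of homologies among the involutions. -/
structure HS {G : Type*} [Group G] (H : G → Prop) : Prop where
  sq : ∀ {a : G}, H a → a * a = 1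
  ne : ∀ {a : G}, H a → a ≠ 1
  conj : ∀ {a : G} (g : G), H a → H (g * a * g⁻¹)
  mul : ∀ {a b : G}, H a → H b → a * b = b * a → a ≠ b → H (a * b)
  baer : ∀ {a b : G}, a * a = 1 → a ≠ 1 → b * b = 1 → b ≠ 1 → a * b = b * a → a ≠ b → ¬ H a →
    ¬ H b → H (a * b)
  lemC : ∀ {a b x : G}, H a → H b → a * b = b * a → a ≠ b → x * x = a → x * b = b * x → False
  cyc : ∀ {A : Subgroup G} {a b : G}, IsPGroup 2 A → H a → H b → a ≠ b → a ∈ A → b ∈ A →
    (∀ x ∈ A, x * a = a * x) → (∀ x ∈ A, x * b = b * x) → ∃ c ∈ A, (∀ i : ℕ, ¬ H (c ^ i)) ∧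
      ∀ x ∈ A, ∃ (i : ℕ) (v : G), (v = 1 ∨ v = a ∨ v = b ∨ v = a * b) ∧ x = c ^ i * v
  idx : ∀ {S : Subgroup G}, IsPGroup 2 S → ∃ T ≤ S, (∀ x ∈ S, ∀ y ∈ S, x ∉ T → y ∉ T → x * y ∈ T) ∧
    ∀ x ∈ T, ∀ y ∈ T, H x → H y → x = y

variable {P L : Type*} [Membership P L] [Fintype P] [Fintype L] [ProjectivePlane P L]
  {G : Type*} [Group G] [MulAction G P] [MulAction G L] [Coll G P L] [FaithfulSMul G P]
  {O : Finset P}

local notation "n" => ProjectivePlane.order P L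

theorem three_le_fx {g : G} {p q r : P} (hp : p ∈ O) (hq : q ∈ O) (hr : r ∈ O) (pq : p ≠ q)
    (pr : p ≠ r) (qr : q ≠ r) (h1 : g • p = p) (h2 : g • q = q) (h3 : g • r = r) : 3 ≤ fx O g :=
  two_lt_card_iff.2 ⟨p, q, r, mem_filter.2 ⟨hp, h1⟩, mem_filter.2 ⟨hq, h2⟩, mem_filter.2 ⟨hr, h3⟩,
    pq, pr, qr⟩

namespace Ov

theorem no_q8 (h : Ov L G O) {s t z : G} (hz : Inv P z) (hs : s * s = z) (ht : t * t = z)
    (hst : s * t * (s * t) = z) (z3 : 3 ≤ fx O z) (s3 : 3 ≤ fx O s) (t3 : 3 ≤ fx O t)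
    (st3 : 3 ≤ fx O (s * t)) : False := by
  have q := h.quad_of_fx hz z3
  let _ := fixPlane q
  have h' := h.sub hz q (by omega)
  have mem : ∀ {x : G}, x * x = z → x ∈ Cm P L z := fun hx => mem_Cm fun p => by
    rw [← mul_smul, ← mul_smul, ← hx, mul_assoc]
  have inv : ∀ x : Cm P L z, x.1 * x.1 = z → Inv (FP z P) x := fun x hx => by
    refine ⟨fun p => Subtype.ext (by rw [cmP_val, cmP_val, ← mul_smul, hx, p.2]),
      by_contra fun k => ?_⟩
    push Not at k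
    have e : ∀ p : P, z • p = p → x.1 • p = p := fun p hp => congrArg Subtype.val (k (FP.mk p hp))
    obtain ⟨y, hy⟩ := hz.2
    refine hy (h.fix_all (fun p hp => ?_) y)
    rcases h.triv_sub hz q e hp with k | k
    · rw [← hx, mul_smul, k, k]
    · have : x.1 • p = p := smul_left_cancel x.1 (by rw [← mul_smul, hx, k])
      rw [← k, this]
  have fe : ∀ x : Cm P L z, x.1 * x.1 = z →
      fx (univ.filter fun p : FP z P => p.1 ∈ O) x = fx O x.1 := fun x hx => by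
    refine card_bij (fun p _ => p.1) (fun p hp => ?_) (fun _ _ _ _ e => Subtype.ext e)
      fun p hp => ?_
    · simp only [mem_filter, mem_univ, true_and] at hp ⊢
      exact ⟨hp.1, congrArg Subtype.val hp.2⟩
    · rw [mem_filter] at hp
      exact ⟨FP.mk p (by rw [← hx, mul_smul, hp.2, hp.2]),
        mem_filter.2 ⟨mem_filter.2 ⟨mem_univ _, hp.1⟩, Subtype.ext hp.2⟩, rfl⟩
  refine h'.no_klein (a := ⟨s, mem hs⟩) (b := ⟨t, mem ht⟩) (inv _ hs) (inv _ ht) (inv _ hst)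
    (fun p => Subtype.ext ?_) (s3.trans_eq (fe ⟨s, mem hs⟩ hs).symm)
    (t3.trans_eq (fe ⟨t, mem ht⟩ ht).symm) (st3.trans_eq (fe ⟨s * t, mem hst⟩ hst).symm)
  have e1 : t * s * t = s := mul_left_cancel (a := s) (by rw [hs, ← hst]; group)
  have e2 : t * s * z = s * t := by rw [← ht, ← mul_assoc, e1]
  change t • s • p.1 = s • t • p.1
  rw [← mul_smul s, ← e2, mul_smul, mul_smul, p.2]

theorem cyc [Finite G] (h : Ov L G O) (hp : ∀ f : G →* ℤˣ, f = 1) (n1 : n % 4 = 1)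
    {A : Subgroup G} {a b : G} (hA : IsPGroup 2 A) (ha : IsH P L a) (hb : IsH P L b) (ne : a ≠ b)
    (aA : a ∈ A) (bA : b ∈ A) (ca : ∀ x ∈ A, x * a = a * x) (cb : ∀ x ∈ A, x * b = b * x) :
    ∃ c ∈ A, (∀ i : ℕ, ¬ IsH P L (c ^ i)) ∧
      ∀ x ∈ A, ∃ (i : ℕ) (v : G), (v = 1 ∨ v = a ∨ v = b ∨ v = a * b) ∧ x = c ^ i * v := by
  have e := cb a aA
  obtain ⟨c1, c2, c3, a1, a2, a3, k1, k2, k3, -⟩ := h.tri ha hb e ne
  have two : ∀ {a : G} {c1 : P} {a1 : L}, HA a c1 a1 →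
      ∃ p ∈ O, ∃ q ∈ O, p ≠ q ∧ p ∈ a1 ∧ q ∈ a1 := fun {a _ _} k => by
    have e1 : fx O a = 2 := ((h.fx_hom hp ⟨_, _, k⟩).resolve_right (by omega)).2
    obtain ⟨p, hp, q, hq, ne⟩ := one_lt_card.1 (show 1 < fx O a by omega)
    simp only [mem_filter] at hp hq
    exact ⟨p, hp.1, q, hq.1, ne, h.mem_ax k hp.1 hp.2, h.mem_ax k hq.1 hq.2⟩
  obtain ⟨p, hp1, q, hq1, d1, p1, q1⟩ := two k1
  obtain ⟨r, hr1, s, hs1, d2, r1, s1⟩ := two k2
  have nc : ∀ {x : P}, x ∈ O → a • x = x → b • x = x → False := fun hx h1 h2 =>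
    h.no_common ha hb e ne hx h1 h2
  have o1 : ∀ x ∈ A, x • p = p ∨ x • p = q := fun x hx =>
    h.other hp1 hq1 d1 p1 q1 (k1.fix_of_comm (ca x hx)).2
  have o2 : ∀ x ∈ A, x • r = r ∨ x • r = s := fun x hx =>
    h.other hr1 hs1 d2 r1 s1 (k2.fix_of_comm (cb x hx)).2
  have bp : b • p = q := (o1 b bA).resolve_left (nc hp1 (k1.ax _ p1))
  have ar : a • r = s := (o2 a aA).resolve_left fun k => nc hr1 k (k2.ax _ r1)
  let D := A ⊓ MulAction.stabilizer G p ⊓ MulAction.stabilizer G r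
  have f3 : ∀ x ∈ D, 3 ≤ fx O x := fun x hx => three_le_fx hp1 hq1 hr1 d1
    (fun e => nc hp1 (k1.ax _ p1) (k2.ax _ (e ▸ r1)))
    (fun e => nc hq1 (k1.ax _ q1) (k2.ax _ (e ▸ r1))) hx.1.2
    (h.other_fix hq1 hp1 q1 p1 (k1.fix_of_comm (ca x hx.1.1)).2 hx.1.2) hx.2
  have hD : IsPGroup 2 D := hA.to_le (inf_le_left.trans inf_le_left)
  have iv : ∀ x : D, orderOf x = 2 → Inv P (x : G) := fun x hx => by
    rw [← Subgroup.orderOf_coe] at hx
    exact inv_of P (by rw [← sq, ← hx, pow_orderOf_eq_one]) (by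
      intro e; rw [e, orderOf_one] at hx; omega)
  have uq : ∀ x y : D, orderOf x = 2 → orderOf y = 2 → x = y := fun x y hx hy => by
    have : Nontrivial D := ⟨x, 1, by intro e; rw [e, orderOf_one] at hx; omega⟩
    have := hD.center_nontrivial
    obtain ⟨j, j0, hj⟩ := (hD.to_subgroup (Subgroup.center D)).nontrivial_iff_card.1 inferInstance
    obtain ⟨z, hz⟩ := exists_prime_orderOf_dvd_card' (G := Subgroup.center D) 2
      (hj ▸ dvd_pow_self 2 j0.ne')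
    rw [← Subgroup.orderOf_coe] at hz
    have key : ∀ x : D, orderOf x = 2 → x = z := fun x hx => by_contra fun ne => by
      have c : (x : G) * z = z * x := congrArg Subtype.val (Subgroup.mem_center_iff.1 z.2 x)
      exact h.no_klein (iv _ hx) (iv _ hz) (inv_mul (iv _ hx) (iv _ hz) c
        fun e => ne (Subtype.ext e)) (fun p => by rw [← mul_smul, ← c, mul_smul]) (f3 _ x.2)
        (f3 _ z.1.2) (f3 _ (D.mul_mem x.2 z.1.2))
    rw [key x hx, key y hy]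
  rcases H1.cyclic_or_quaternion_gens hD uq with ⟨c, hc⟩ | ⟨m, u, g, h1, h2, h3, -⟩
  · refine ⟨c, c.2.1.1, fun i ⟨_, _, k⟩ => ?_, fun x hx => ?_⟩
    · have := h.fx_le k
      have := f3 _ (D.pow_mem c.2 i)
      omega
    have fin : ∀ v ∈ A, v * v = 1 → (x * v) • p = p → (x * v) • r = r →
        ∃ i : ℕ, x = (c : G) ^ i * v := fun v hv v2 e1 e2 => by
      obtain ⟨i, hi⟩ := (mem_powers_iff_mem_zpowers (x := c)).2
        (hc (⟨x * v, ⟨A.mul_mem hx hv, e1⟩, e2⟩ : D))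
      exact ⟨i, by rw [show (c : G) ^ i = x * v from congrArg Subtype.val hi, mul_assoc, v2,
        mul_one]⟩
    have ap := k1.ax _ p1
    have aq := k1.ax _ q1
    have br := k2.ax _ r1
    have bs := k2.ax _ s1
    have bq : b • q = p := by rw [← bp, k2.inv.1]
    have as : a • s = r := by rw [← ar, k1.inv.1]
    rcases o1 x hx with e1 | e1 <;> rcases o2 x hx with e2 | e2
    · obtain ⟨i, hi⟩ := fin 1 A.one_mem (mul_one 1) (by rwa [mul_one]) (by rwa [mul_one])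
      exact ⟨i, 1, by simp, hi⟩
    · obtain ⟨i, hi⟩ := fin a aA k1.inv.sq (by rw [ca x hx, mul_smul, e1, ap])
        (by rw [ca x hx, mul_smul, e2, as])
      exact ⟨i, a, by simp, hi⟩
    · obtain ⟨i, hi⟩ := fin b bA k2.inv.sq (by rw [cb x hx, mul_smul, e1, bq])
        (by rw [cb x hx, mul_smul, e2, br])
      exact ⟨i, b, by simp, hi⟩
    · have cc : x * (a * b) = a * (b * x) := by rw [← mul_assoc, ca x hx, mul_assoc, cb x hx]
      obtain ⟨i, hi⟩ := fin (a * b) (A.mul_mem aA bA) k3.inv.sq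
        (by rw [cc, mul_smul, mul_smul, e1, bq, ap]) (by rw [cc, mul_smul, mul_smul, e2, bs, as])
      exact ⟨i, a * b, by simp, hi⟩
  · exfalso
    have z2 : orderOf (u ^ 2 ^ (m + 1)) = 2 := by
      rw [orderOf_pow_of_dvd (by positivity) (h1 ▸ Dvd.intro_left 2 rfl), h1,
        Nat.mul_div_cancel _ (by positivity)]
    have e1 : u ^ 2 ^ m * u ^ 2 ^ m = u ^ 2 ^ (m + 1) := by rw [← pow_add, pow_succ, mul_two]
    have e2 : u ^ 2 ^ m * g * (u ^ 2 ^ m * g) = u ^ 2 ^ (m + 1) := by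
      have : g * u ^ 2 ^ m * g⁻¹ = (u ^ 2 ^ m)⁻¹ := by rw [← conj_pow, h3, inv_pow]
      calc _ = u ^ 2 ^ m * (g * u ^ 2 ^ m * g⁻¹) * (g * g) := by group
        _ = _ := by rw [this, h2, mul_inv_cancel, one_mul]
    exact h.no_q8 (iv _ z2) (s := (u ^ 2 ^ m : D)) (t := g) (congrArg Subtype.val e1)
      (congrArg Subtype.val h2) (congrArg Subtype.val e2) (f3 _ (u ^ 2 ^ (m + 1)).2)
      (f3 _ (u ^ 2 ^ m).2) (f3 _ g.2) (f3 _ (u ^ 2 ^ m * g).2)

theorem idx [Finite G] (h : Ov L G O) (n1 : n % 4 = 1) {S : Subgroup G} (hS : IsPGroup 2 S) :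
    ∃ T ≤ S, (∀ x ∈ S, ∀ y ∈ S, x ∉ T → y ∉ T → x * y ∈ T) ∧
      ∀ x ∈ T, ∀ y ∈ T, IsH P L x → IsH P L y → x = y := by
  obtain ⟨p, hp, k⟩ := ex_small_orbit hS O (fun g _ => h.inv g) (by rw [h.card]; omega)
  refine ⟨S ⊓ MulAction.stabilizer G p, inf_le_left, fun x hx y hy h1 h2 =>
    ⟨S.mul_mem hx hy, k x hx y hy (fun e => h1 ⟨hx, e⟩) fun e => h2 ⟨hy, e⟩⟩, ?_⟩
  set T := S ⊓ MulAction.stabilizer G p
  have hT : IsPGroup 2 T := hS.to_le inf_le_left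
  let _ : MulAction T (O.erase p) :=
    { smul := fun g x => ⟨g.1 • x.1, mem_erase.2 ⟨fun e => (mem_erase.1 x.2).1
        (smul_left_cancel g.1 (e.trans (g.2.2 : g.1 • p = p).symm)),
        h.inv _ _ (mem_erase.1 x.2).2⟩⟩
      one_smul := fun p => Subtype.ext (one_smul G p.1)
      mul_smul := fun a b p => Subtype.ext (mul_smul a.1 b.1 p.1) }
  obtain ⟨q, hq⟩ := hT.nonempty_fixed_point_of_prime_not_dvd_card (O.erase p) (by
    rw [Nat.card_eq_fintype_card, Fintype.card_coe, card_erase_of_mem hp, h.card]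
    omega)
  rintro x hx y hy ⟨_, _, kx⟩ ⟨_, _, ky⟩
  have q1 := mem_erase.1 q.2
  have := (eq_or (h.mem_ax kx q1.2 (congrArg Subtype.val (hq ⟨x, hx⟩))) (h.mem_ax kx hp hx.2)
    (h.mem_ax ky q1.2 (congrArg Subtype.val (hq ⟨y, hy⟩))) (h.mem_ax ky hp hy.2)).resolve_left q1.1
  exact h.eq_of_ax kx (this ▸ ky)

theorem hs [Finite G] (h : Ov L G O) (hp : ∀ f : G →* ℤˣ, f = 1) (n1 : n % 4 = 1) :
    HS (IsH P L : G → Prop) where
  sq := fun ⟨_, _, k⟩ => k.inv.sq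
  ne := fun ⟨_, _, k⟩ => k.inv.ne
  conj := fun g ⟨_, _, k⟩ => ⟨_, _, k.conj g⟩
  mul := h.mul_isH
  baer := fun a1 a2 b1 b2 => h.mul_baer hp (inv_of P a1 a2) (inv_of P b1 b2)
  lemC := h.lemC hp
  cyc := h.cyc hp n1
  idx := h.idx n1

end Ov

end Cfsg.Agent.OVAL
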