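/-
The homologies in a Sylow 2-subgroup generate a dihedral normal subgroup.
-/
import Cfsg.Agent.OVAL.Data
import Cfsg.Agent.H43.Basic
import Cfsg.Agent.S0215

set_option autoImplicit false
set_option linter.unusedSectionVars false

namespace Cfsg.Agent.OVAL

open Subgroup

variable {G : Type*} [Group G] [Finite G]

theorem inv_uniq {c x y : G} (hx : x ∈ zpowers c) (hy : y ∈ zpowers c) (x2 : x * x = 1)
    (y2 : y * y = 1) (x1 : x ≠ 1) (y1 : y ≠ 1) : x = y := by
  classical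
  by_contra ne
  have := Fintype.ofFinite (zpowers c)
  have k := IsCyclic.card_pow_eq_one_le (α := zpowers c) (n := 2) two_pos
  refine absurd k (not_le.2 (Finset.two_lt_card_iff.2 ⟨1, ⟨x, hx⟩, ⟨y, hy⟩, by simp, ?_, ?_,
    fun e => x1 (congrArg Subtype.val e).symm, fun e => y1 (congrArg Subtype.val e).symm,
    fun e => ne (congrArg Subtype.val e)⟩))
  · simpa [sq, Subtype.ext_iff] using x2
  · simpa [sq, Subtype.ext_iff] using y2

theorem ord_two_pow {S : Subgroup G} (hS : IsPGroup 2 S) {x : G} (hx : x ∈ S) :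
    ∃ e : ℕ, orderOf x = 2 ^ e := by
  obtain ⟨e, he⟩ := IsPGroup.iff_orderOf.1 hS ⟨x, hx⟩
  exact ⟨e, by rw [← he, orderOf_mk]⟩

theorem ex_half {S : Subgroup G} (hS : IsPGroup 2 S) {x : G} (hx : x ∈ S) (x1 : x ≠ 1) :
    ∃ j : ℕ, orderOf x = 2 ^ (j + 1) ∧ x ^ 2 ^ j * x ^ 2 ^ j = 1 ∧ x ^ 2 ^ j ≠ 1 := by
  obtain ⟨e, he⟩ := ord_two_pow hS hx
  rcases e with _ | j
  · exact (x1 (orderOf_eq_one_iff.1 he)).elim
  refine ⟨j, he, by rw [← pow_add, ← two_mul, ← pow_succ', ← he, pow_orderOf_eq_one],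
    pow_ne_one_of_lt_orderOf (by positivity) (by rw [he]; exact Nat.pow_lt_pow_succ one_lt_two)⟩

theorem not_isolated [IsSimpleGroup G] (hG : ¬ IsMulCommutative G) (S : Sylow 2 G) {u : G}
    (hu : u ∈ (S : Subgroup G)) (u2 : u * u = 1) (u1 : u ≠ 1) :
    ∃ g : G, g * u * g⁻¹ ∈ (S : Subgroup G) ∧ g * u * g⁻¹ ≠ u := by
  by_contra k
  push Not at k
  have ho : orderOf u = 2 := orderOf_eq_prime (by rw [sq, u2]) u1
  obtain ⟨N, hN, h1, h2⟩ := S0215.result S u ho hu k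
  rcases hN.eq_bot_or_eq_top with rfl | rfl
  · rcases (inferInstance : (center G).Normal).eq_bot_or_eq_top with e | e
    · refine u1 (mem_bot.1 (e ▸ mem_center_iff.2 fun g => ?_))
      have := mem_bot.1 (h2 g)
      rw [mul_inv_eq_one, mul_inv_eq_iff_eq_mul] at this
      exact this.symm
    · exact hG ⟨⟨fun a b => mem_center_iff.1 (e ▸ mem_top b) a⟩⟩
  · rw [card_top] at h1
    exact (Nat.not_even_iff_odd.2 h1) (even_iff_two_dvd.2 (ho ▸ orderOf_dvd_natCard u))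

theorem hom_eq_one [IsSimpleGroup G] (hG : ¬ IsMulCommutative G) {A : Type*} [CommGroup A]
    (f : G →* A) : f = 1 := by
  rcases f.normal_ker.eq_bot_or_eq_top with e | e
  · exact (hG ⟨⟨fun a b => (f.ker_eq_bot_iff.1 e) (by rw [map_mul, map_mul, mul_comm])⟩⟩).elim
  · exact MonoidHom.ext fun g => MonoidHom.mem_ker.1 (e ▸ mem_top g)

/-- A Thompson-type transfer lemma with an abelian quotient. -/
theorem transfer_two [IsSimpleGroup G] (hG : ¬ IsMulCommutative G) (S : Sylow 2 G)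
    {N : Subgroup G} (hc : ∀ x ∈ (S : Subgroup G), ∀ y ∈ (S : Subgroup G), x * y * x⁻¹ * y⁻¹ ∈ N)
    {b b' : G} (hb : b ∈ (S : Subgroup G)) (hb' : b' ∈ (S : Subgroup G)) (b2 : b * b = 1)
    (b2' : b' * b' = 1) (bN : b ∉ N) (bN' : b' ∉ N)
    (h : ∀ g : G, g * b * g⁻¹ ∈ (S : Subgroup G) →
      g * b * g⁻¹ * b ∈ N ∨ g * b * g⁻¹ * b' ∈ N) : False := by
  have hn : (N.subgroupOf (S : Subgroup G)).Normal := ⟨fun x hx g => by
    have := N.mul_mem (hc g g.2 x x.2) (show (x : G) ∈ N from hx)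
    rwa [inv_mul_cancel_right] at this⟩
  let _ : CommGroup ((S : Subgroup G) ⧸ N.subgroupOf (S : Subgroup G)) :=
    { (inferInstance : Group _) with
      mul_comm := fun x y => by
        obtain ⟨x, rfl⟩ := QuotientGroup.mk_surjective x
        obtain ⟨y, rfl⟩ := QuotientGroup.mk_surjective y
        rw [← QuotientGroup.mk_mul, ← QuotientGroup.mk_mul, QuotientGroup.eq]
        have := hc _ (y⁻¹).2 _ (x⁻¹).2
        simpa [mem_subgroupOf, mul_assoc] using this }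
  let π := QuotientGroup.mk' (N.subgroupOf (S : Subgroup G))
  have π1 : ∀ x : (S : Subgroup G), π x = 1 ↔ (x : G) ∈ N := fun x => QuotientGroup.eq_one_iff x
  set u := π ⟨b, hb⟩
  set u' := π ⟨b', hb'⟩
  have u2 : u * u = 1 := by
    rw [← map_mul, π1]; exact (show b * b ∈ N from b2 ▸ N.one_mem)
  have u2' : u' * u' = 1 := by
    rw [← map_mul, π1]; exact (show b' * b' ∈ N from b2' ▸ N.one_mem)
  let φ := (QuotientGroup.mk' (zpowers (u * u'))).comp π
  have e1 : φ ⟨b, hb⟩ * φ ⟨b', hb'⟩ = 1 := by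
    rw [← map_mul φ]; exact (QuotientGroup.eq_one_iff _).2 (by rw [map_mul π]; exact mem_zpowers _)
  have e2 : φ ⟨b, hb⟩ * φ ⟨b, hb⟩ = 1 := by
    rw [← map_mul φ, MonoidHom.comp_apply, map_mul π, u2, map_one]
  have e3 : φ ⟨b, hb⟩ ≠ 1 := fun e => by
    obtain ⟨k, hk⟩ := (QuotientGroup.eq_one_iff (N := zpowers (u * u')) u).1 e
    have w : (u * u') ^ (2 : ℤ) = 1 := by
      rw [zpow_two, mul_mul_mul_comm, u2, u2', one_mul]
    obtain ⟨j, rfl | rfl⟩ := Int.even_or_odd' k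
    · exact bN ((π1 ⟨b, hb⟩).1 (by simpa only [zpow_mul, w, one_zpow] using hk.symm))
    · simp only [zpow_add, zpow_mul, w, one_zpow, one_mul, zpow_one] at hk
      exact bN' ((π1 ⟨b', hb'⟩).1 (mul_eq_left.1 hk))
  have := H43.transfer_eq_pow' φ b hb fun k a ha => by
    obtain ⟨j, rfl | rfl⟩ := Nat.even_or_odd' k
    · simp only [pow_mul, sq, b2, e2, one_pow, mul_one, inv_mul_cancel]
      exact map_one φ
    · simp only [pow_succ, pow_mul, pow_zero, one_mul, b2, e2, one_pow] at ha ⊢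
      have k := h a⁻¹ (by rwa [inv_inv])
      rw [inv_inv] at k
      rcases k with k | k
      · have : φ (⟨_, ha⟩ * ⟨b, hb⟩) = 1 := by
          rw [MonoidHom.comp_apply, (π1 _).2 k, map_one]
        rw [map_mul] at this
        exact mul_right_cancel (this.trans e2.symm)
      · have : φ (⟨_, ha⟩ * ⟨b', hb'⟩) = 1 := by
          rw [MonoidHom.comp_apply, (π1 _).2 k, map_one]
        rw [map_mul] at this
        exact mul_right_cancel (this.trans e1.symm)
  rw [hom_eq_one hG (MonoidHom.transfer φ), MonoidHom.one_apply] at this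
  obtain ⟨j, hj⟩ : Odd (S : Subgroup G).index := by
    rw [← Nat.not_even_iff_odd, even_iff_two_dvd]
    exact S.not_dvd_index
  rw [hj, pow_succ, pow_mul, sq, e2, one_pow, one_mul] at this
  exact e3 this.symm

variable {H : G → Prop}

theorem HS.inv (h : HS H) {t x : G} (ht : H t) (hx : H (t * x)) : t * x * t⁻¹ = x⁻¹ := by
  rw [inv_eq_of_mul_eq_one_left (h.sq ht), eq_inv_iff_mul_eq_one, mul_assoc, h.sq hx]

theorem conj_t {t x : G} (h : t * x * t⁻¹ = x⁻¹) (k : ℤ) :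
    x ^ (-k) * t = t * x ^ k := by
  have : t * x ^ k * t⁻¹ = x ^ (-k) := by rw [← conj_zpow, h, inv_zpow']
  rw [← this, inv_mul_cancel_right]

theorem HS.pow (h : HS H) {t x : G} (ht : H t) (hx : H (t * x)) (k : ℤ) : H (t * x ^ k) := by
  have e := conj_t (h.inv ht hx)
  obtain ⟨j, rfl | rfl⟩ := Int.even_or_odd' k
  · convert h.conj (x ^ (-j)) ht using 1
    rw [e]; group
  · convert h.conj (x ^ (-j)) hx using 1
    rw [← mul_assoc, e]; group

theorem HS.half (h : HS H) {t x : G} (ht : H t) (hx : H (t * x)) (x2 : x * x = 1) (x1 : x ≠ 1) :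
    H x := by
  have e := h.inv ht hx
  rw [inv_eq_of_mul_eq_one_left x2, mul_inv_eq_iff_eq_mul] at e
  have := h.mul ht hx (by rw [mul_assoc t x, ← e]) fun k => x1 (left_eq_mul.1 k)
  rwa [← mul_assoc, h.sq ht, one_mul] at this

/-- The dihedral subgroup generated by the homologies of `S`. -/
structure St (H : G → Prop) (S : Subgroup G) (s t y : G) : Prop where
  hs : HS H
  p2 : IsPGroup 2 S
  tS : t ∈ S
  yS : y ∈ S
  hσ : H s
  ht : H t
  cen : ∀ x ∈ S, x * s = s * x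
  sy : s ∈ zpowers y
  ty : H (t * y)
  tne : t ∉ zpowers y
  all : ∀ x ∈ S, H x → x = s ∨ ∃ k : ℤ, x = t * y ^ k

theorem ex_st [IsSimpleGroup G] (hG : ¬ IsMulCommutative G) (h : HS H) (S : Sylow 2 G) {b : G}
    (hb : b ∈ (S : Subgroup G)) (b2 : b * b = 1) (b1 : b ≠ 1) : ∃ s t y, St H S s t y := by
  have hS := S.isPGroup'
  obtain ⟨T, TS, idx, uq⟩ := h.idx hS
  obtain ⟨a, ha, Ha⟩ : ∃ a ∈ (S : Subgroup G), H a := by
    have : Nontrivial (S : Subgroup G) := ⟨⟨b, hb⟩, 1, fun e => b1 (congrArg Subtype.val e)⟩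
    have := hS.center_nontrivial
    obtain ⟨z, z1⟩ := exists_ne (1 : center (S : Subgroup G))
    obtain ⟨j, -, w2, w1⟩ := ex_half hS z.1.2 fun e => z1 (Subtype.ext (Subtype.ext e))
    have wS := (S : Subgroup G).pow_mem z.1.2 (2 ^ j)
    have wc : ∀ x ∈ (S : Subgroup G), x * (z.1 : G) ^ 2 ^ j = (z.1 : G) ^ 2 ^ j * x := fun x hx =>
      (Commute.pow_right (congrArg Subtype.val (mem_center_iff.1 z.2 ⟨x, hx⟩)) _).eq
    generalize (z.1 : G) ^ 2 ^ j = w at *
    by_contra k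
    push Not at k
    have key : ∀ x ∈ (S : Subgroup G), x * x = 1 → x ≠ 1 → x = w := fun x hx x2 x1 =>
      by_contra fun ne => k _ (mul_mem hx wS)
        (h.baer x2 x1 w2 w1 (wc x hx) ne (k x hx) (k w wS))
    obtain ⟨g, g1, g2⟩ := not_isolated hG S hb b2 b1
    exact g2 ((key _ g1 (by rw [conj_mul, b2]; group) (by simpa using b1)).trans
      (key b hb b2 b1).symm)
  obtain ⟨t, tS, tT, ht, t', tS', ht', ne⟩ : ∃ t ∈ (S : Subgroup G), t ∉ T ∧ H t ∧
      ∃ t' ∈ (S : Subgroup G), H t' ∧ t' ≠ t := by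
    obtain ⟨g, g1, g2⟩ := not_isolated hG S ha (h.sq Ha) (h.ne Ha)
    by_cases k : a ∈ T
    · exact ⟨_, g1, fun k' => g2 (uq _ k' _ k (h.conj g Ha) Ha), h.conj g Ha, a, ha, Ha, g2.symm⟩
    · exact ⟨a, ha, k, Ha, _, g1, h.conj g Ha, g2⟩
  have hf : ∀ {t x : G}, H t → x ∈ T → H (t * x) → x ≠ 1 →
      ∃ j : ℕ, orderOf x = 2 ^ (j + 1) ∧ H (x ^ 2 ^ j) := fun {t x} ht hx k x1 => by
    obtain ⟨j, j1, j2, j3⟩ := ex_half hS (TS hx) x1
    exact ⟨j, j1, h.half ht (zpow_natCast x (2 ^ j) ▸ h.pow ht k (2 ^ j : ℕ)) j2 j3⟩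
  have tt : ∀ x, t * (t * x) = x := fun x => by rw [← mul_assoc, h.sq ht, one_mul]
  obtain ⟨s, sT, hs⟩ : ∃ s ∈ T, H s := by
    by_cases k : t' ∈ T
    · exact ⟨t', k, ht'⟩
    obtain ⟨j, -, hj⟩ := hf ht (idx t tS t' tS' tT k) (by rwa [tt]) fun e => ne (by
      rw [← tt t', e, mul_one])
    exact ⟨_, T.pow_mem (idx t tS t' tS' tT k) _, hj⟩
  have cen : ∀ x ∈ (S : Subgroup G), x * s = s * x := fun x hx => by
    rw [← mul_inv_eq_iff_eq_mul]
    refine uq _ ?_ _ sT (h.conj x hs) hs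
    by_cases k : x ∈ T
    · exact mul_mem (mul_mem k sT) (inv_mem k)
    · exact idx _ (mul_mem hx (TS sT)) _ (inv_mem hx) (fun e => k ((T.mul_mem_cancel_right sT).1 e))
        (fun e => k (inv_mem_iff.1 e))
  have ts : H (t * s) := h.mul ht hs (cen t tS) fun e => tT (e ▸ sT)
  obtain ⟨y, ⟨yT, ty⟩, mx⟩ := Set.exists_max_image {x | x ∈ T ∧ H (t * x)} orderOf
    (Set.toFinite _) ⟨s, sT, ts⟩
  have sy : s ∈ zpowers y := by
    obtain ⟨j, -, hj⟩ := hf ht yT ty (by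
      rintro rfl
      have := mx s ⟨sT, ts⟩
      rw [orderOf_one, orderOf_eq_prime (p := 2) (by rw [sq, h.sq hs]) (h.ne hs)] at this
      omega)
    exact uq _ (T.pow_mem yT _) _ sT hj hs ▸ pow_mem (mem_zpowers y) _
  have sqr : ∀ x ∈ T, ∀ x' ∈ T, H (t * x) → H (t * x') → x * x = x' * x' → x' = x ∨ x' = x * s := by
    intro x hx x' hx' k k' e
    have e1 : t * x * (x⁻¹ * x') = t * x' := by group
    by_cases z1 : x⁻¹ * x' = 1
    · exact Or.inl (by rw [← mul_inv_cancel_left x x', z1, mul_one])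
    have zT : x⁻¹ * x' ∈ T := mul_mem (inv_mem hx) hx'
    obtain ⟨j, -, hj⟩ := hf k zT (e1 ▸ k') z1
    have e2 := uq _ (T.pow_mem zT _) _ sT hj hs
    rcases j with _ | j
    · exact Or.inr (by rw [← e2]; group)
    have c : Commute (x⁻¹ * x') t := by
      have i1 := conj_t (h.inv ht k) 1
      have i2 := conj_t (h.inv ht k') (-1)
      rw [zpow_neg, zpow_one] at i1
      rw [neg_neg, zpow_neg, zpow_one] at i2
      calc x⁻¹ * x' * t = t * x⁻¹ * (x * x) * x'⁻¹ := by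
            rw [mul_assoc, i2, ← mul_assoc, i1]; group
        _ = _ := by rw [e]; group
    exact (h.lemC hs ht (cen t tS).symm (fun e => tT (e ▸ sT))
      (x := (x⁻¹ * x') ^ 2 ^ j) (by rw [← pow_add, ← two_mul, ← pow_succ', e2])
      (c.pow_left _).eq).elim
  have mem : ∀ i : ℕ, ∀ x ∈ T, H (t * x) → x ^ 2 ^ i = 1 → x ∈ zpowers y := by
    intro i
    induction i with
    | zero => intro x _ _ e; rw [pow_zero, pow_one] at e; exact e ▸ one_mem _
    | succ i ih =>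
      intro x hx k e
      obtain ⟨m, hm⟩ := ih (x * x) (mul_mem hx hx) (zpow_two x ▸ h.pow ht k 2)
        (by rw [← sq, ← pow_mul, ← pow_succ', e])
      dsimp only at hm
      obtain ⟨r, rfl | rfl⟩ := Int.even_or_odd' m
      · rcases sqr _ (zpow_mem yT r) x hx (h.pow ht ty r) k (by rw [← hm]; group) with e | e
        · exact e ▸ zpow_mem (mem_zpowers y) r
        · exact e ▸ mul_mem (zpow_mem (mem_zpowers y) r) sy
      · by_cases x1 : x = 1
        · exact x1 ▸ one_mem _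
        exfalso
        obtain ⟨j, hj, -⟩ := hf ht hx k x1
        obtain ⟨l, hl⟩ := ord_two_pow hS (TS yT)
        have e1 : y ^ ((2 * r + 1) * 2 ^ j) = 1 := by
          rw [zpow_mul, hm, ← sq]
          exact_mod_cast (by rw [← pow_mul, ← pow_succ', ← hj, pow_orderOf_eq_one] :
            (x ^ 2) ^ 2 ^ j = 1)
        rw [← orderOf_dvd_iff_zpow_eq_one, hl] at e1
        have e2 : ((2 : ℤ) ^ l) ∣ 2 ^ j := by
          refine IsCoprime.dvd_of_dvd_mul_left ?_ (by exact_mod_cast e1)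
          exact IsCoprime.pow_left ⟨-r, 1, by ring⟩
        have e3 : 2 ^ l ≤ 2 ^ j := Nat.le_of_dvd (by positivity) (by exact_mod_cast e2)
        have e4 := mx x ⟨hx, k⟩
        rw [hj, hl, pow_succ] at e4
        have := Nat.two_pow_pos j
        omega
  refine ⟨s, t, y, h, hS, tS, TS yT, hs, ht, cen, sy, ty, fun e => tT (zpowers_le.2 yT e),
    fun x hx k => ?_⟩
  by_cases xT : x ∈ T
  · exact Or.inl (uq _ xT _ sT k hs)
  · obtain ⟨e, he⟩ := ord_two_pow hS (mul_mem tS hx)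
    obtain ⟨m, hm⟩ := mem e _ (idx t tS x hx tT xT) (by rwa [tt]) (he ▸ pow_orderOf_eq_one _)
    exact Or.inr ⟨m, by rw [show y ^ m = t * x from hm, tt]⟩

end Cfsg.Agent.OVAL
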