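/-
Action of the Sylow 2-subgroup on the dihedral group of homologies; the `Z*` case.
-/
import Cfsg.Agent.OVAL.Grp1

set_option autoImplicit false
set_option linter.unusedSectionVars false

namespace Cfsg.Agent.OVAL

open Subgroup

variable {G : Type*} [Group G] [Finite G] {H : G → Prop}

theorem odd_cancel {y : G} {e : ℕ} (he : orderOf y = 2 ^ e) {k m : ℤ}
    (h : y ^ (k * (2 * m + 1)) = 1) : y ^ k = 1 := by
  rw [← orderOf_dvd_iff_zpow_eq_one, he] at h ⊢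
  exact IsCoprime.dvd_of_dvd_mul_right (by exact_mod_cast
    (IsCoprime.pow_left ⟨-m, 1, by ring⟩ : IsCoprime ((2 : ℤ) ^ e) (2 * m + 1))) h

theorem mem_zp {c w : G} {j : ℕ} (hc : orderOf c = 2 ^ (j + 2)) (hw : w ∈ zpowers c)
    (w2 : w * w ≠ 1) : c ^ 2 ^ j ∈ zpowers w := by
  obtain ⟨k, rfl⟩ := (mem_powers_iff_mem_zpowers (x := c)).2 hw
  dsimp only at w2 ⊢
  obtain ⟨r, u, hu, rfl⟩ := Nat.exists_eq_two_pow_mul_odd (n := k) (by rintro rfl; simp at w2)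
  obtain ⟨l, rfl⟩ : ∃ l, j = r + l := by
    refine Nat.exists_eq_add_of_le (not_lt.1 fun h => w2 ?_)
    obtain ⟨l, rfl⟩ := Nat.exists_eq_add_of_lt h
    rw [← pow_add, ← orderOf_dvd_iff_pow_eq_one, hc]
    exact ⟨2 ^ l * u, by ring⟩
  rw [pow_add, pow_mul, pow_mul]
  refine pow_mem (mem_zpowers_pow_iff.2 ?_) _
  refine Nat.Coprime.coprime_dvd_right (orderOf_pow_dvd _) ?_
  rw [hc]
  exact (Nat.coprime_two_right.2 hu).pow_right _

theorem HS.sq_eq (h : HS H) {S : Subgroup G} (hS : IsPGroup 2 S) {a b d d' : G} (ha : H a)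
    (hb : H b) (ne : a ≠ b) (c : a * b = b * a) (aS : a ∈ S) (bS : b ∈ S) (dS : d ∈ S)
    (dS' : d' ∈ S) (da : d * a = a * d) (db : d * b = b * d) (da' : d' * a = a * d')
    (db' : d' * b = b * d') (d4 : d * d * (d * d) = 1) (d2 : d * d ≠ 1)
    (d4' : d' * d' * (d' * d') = 1) (d2' : d' * d' ≠ 1) : d * d = d' * d' := by
  have m := @mem_centralizer_singleton_iff G _
  obtain ⟨u, hu, -, k⟩ := h.cyc (A := S ⊓ centralizer {a} ⊓ centralizer {b})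
    (hS.to_le (inf_le_left.trans inf_le_left)) ha hb ne ⟨⟨aS, m.2 rfl⟩, m.2 c⟩
    ⟨⟨bS, m.2 c.symm⟩, m.2 rfl⟩ (fun x hx => m.1 hx.1.2) fun x hx => m.1 hx.2
  have ua : Commute u a := m.1 hu.1.2
  have ub : Commute u b := m.1 hu.2
  have key : ∀ x ∈ S ⊓ centralizer {a} ⊓ centralizer {b}, x * x ∈ zpowers u := fun x hx => by
    obtain ⟨i, v, hv, rfl⟩ := k x hx
    have : Commute u v ∧ v * v = 1 := by
      rcases hv with rfl | rfl | rfl | rfl
      exacts [⟨Commute.one_right _, mul_one _⟩, ⟨ua, h.sq ha⟩, ⟨ub, h.sq hb⟩,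
        ⟨ua.mul_right ub, h.sq (h.mul ha hb c ne)⟩]
    rw [(this.1.pow_left i).symm.mul_mul_mul_comm, this.2, mul_one]
    exact mul_mem (pow_mem (mem_zpowers u) _) (pow_mem (mem_zpowers u) _)
  exact inv_uniq (key d ⟨⟨dS, m.2 da⟩, m.2 db⟩) (key d' ⟨⟨dS', m.2 da'⟩, m.2 db'⟩) d4 d4' d2 d2'

namespace St

variable {S : Subgroup G} {s t y : G}

theorem ty' (h : St H S s t y) (k : ℤ) : H (t * y ^ k) := h.hs.pow h.ht h.ty k

theorem ct (h : St H S s t y) (k : ℤ) : y ^ (-k) * t = t * y ^ k := conj_t (h.hs.inv h.ht h.ty) k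

theorem tt (h : St H S s t y) (x : G) : t * (t * x) = x := by
  rw [← mul_assoc, h.hs.sq h.ht, one_mul]

theorem tyt (h : St H S s t y) (k : ℤ) : t * y ^ k * t⁻¹ = y ^ (-k) := by
  rw [← h.ct, mul_inv_cancel_right]

theorem sS (h : St H S s t y) : s ∈ S := zpowers_le.2 h.yS h.sy

theorem y1 (h : St H S s t y) : y ≠ 1 := by
  rintro rfl
  exact h.hs.ne h.hσ (by simpa using h.sy)

theorem odd_ne (h : St H S s t y) (i : ℤ) : y ^ (2 * i + 1) ≠ 1 := fun k => by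
  obtain ⟨e, he⟩ := ord_two_pow h.p2 h.yS
  exact h.y1 (by simpa using odd_cancel he (k := 1) (m := i) (by rwa [one_mul]))

theorem two_ne (h : St H S s t y) (y2 : y * y ≠ 1) (i : ℤ) : y ^ (4 * i + 2) ≠ 1 := fun k => by
  obtain ⟨e, he⟩ := ord_two_pow h.p2 h.yS
  exact y2 (zpow_two y ▸ odd_cancel he (k := 2) (m := i) (by rw [← k]; congr 1; ring))

theorem st (h : St H S s t y) (k : ℤ) : s ≠ t * y ^ k := fun e =>
  h.tne (by
    have := mul_mem h.sy (zpow_mem (mem_zpowers y) (-k))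
    rwa [e, mul_assoc, ← zpow_add, add_neg_cancel, zpow_zero, mul_one] at this)

theorem st0 (h : St H S s t y) : s ≠ t := by simpa using h.st 0

theorem cj (h : St H S s t y) {x : G} (hx : x ∈ S) (k : ℤ) :
    ∃ a : ℤ, x * (t * y ^ k) * x⁻¹ = t * y ^ a := by
  refine (h.all _ (mul_mem (mul_mem hx (mul_mem h.tS (zpow_mem h.yS k))) (inv_mem hx))
    (h.hs.conj x (h.ty' k))).resolve_left fun e => h.st k ?_
  rw [mul_inv_eq_iff_eq_mul, ← h.cen x hx] at e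
  exact (mul_left_cancel e).symm

theorem cj0 (h : St H S s t y) {x : G} (hx : x ∈ S) : ∃ a : ℤ, x * t * x⁻¹ = t * y ^ a := by
  simpa using h.cj hx 0

theorem cjy (h : St H S s t y) {x : G} (hx : x ∈ S) : ∃ b : ℤ, x * y * x⁻¹ = y ^ (2 * b + 1) := by
  obtain ⟨a, ha⟩ := h.cj0 hx
  obtain ⟨a', ha'⟩ := h.cj hx 1
  have e : x * y * x⁻¹ = y ^ (a' - a) := by
    calc x * y * x⁻¹ = (x * t * x⁻¹)⁻¹ * (x * (t * y ^ (1 : ℤ)) * x⁻¹) := by group
      _ = _ := by rw [ha, ha']; group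
  obtain ⟨b, hb | hb⟩ := Int.even_or_odd' (a' - a)
  · obtain ⟨j, j1, -, j3⟩ := ex_half h.p2 h.yS h.y1
    refine (j3 ?_).elim
    have : (x * y * x⁻¹) ^ 2 ^ j = 1 := by
      rw [e, hb, ← zpow_natCast, ← zpow_mul, ← orderOf_dvd_iff_zpow_eq_one, j1]
      exact ⟨b, by push_cast; ring⟩
    rwa [conj_pow, conj_eq_one_iff] at this
  · exact ⟨b, hb ▸ e⟩

/-- The dihedral group. -/
def Dh (h : St H S s t y) : Subgroup G where
  carrier := {x | ∃ k : ℤ, x = y ^ k ∨ x = t * y ^ k}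
  one_mem' := ⟨0, Or.inl (zpow_zero y).symm⟩
  mul_mem' := by
    rintro _ _ ⟨a, rfl | rfl⟩ ⟨b, rfl | rfl⟩
    · exact ⟨a + b, Or.inl (by group)⟩
    · exact ⟨-a + b, Or.inr (by rw [← mul_assoc, ← neg_neg a, h.ct]; group)⟩
    · exact ⟨a + b, Or.inr (by group)⟩
    · exact ⟨-a + b, Or.inl (by
        rw [mul_assoc, ← mul_assoc (y ^ a), ← neg_neg a, h.ct, mul_assoc, h.tt]; group)⟩
  inv_mem' := by
    rintro _ ⟨a, rfl | rfl⟩
    · exact ⟨-a, Or.inl (by group)⟩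
    · exact ⟨a, Or.inr (inv_eq_of_mul_eq_one_left (h.hs.sq (h.ty' a)))⟩

theorem y_mem (h : St H S s t y) (k : ℤ) : y ^ k ∈ h.Dh := ⟨k, Or.inl rfl⟩

theorem t_mem (h : St H S s t y) : t ∈ h.Dh := ⟨0, Or.inr (by simp)⟩

theorem s_mem (h : St H S s t y) : s ∈ h.Dh := by
  obtain ⟨k, hk⟩ := h.sy
  exact ⟨k, Or.inl hk.symm⟩

theorem mem_of_H (h : St H S s t y) {x : G} (hx : x ∈ S) (k : H x) : x ∈ h.Dh :=
  (h.all x hx k).elim (fun e => e ▸ h.s_mem) fun ⟨k, e⟩ => ⟨k, Or.inr e⟩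

theorem H_of_mem (h : St H S s t y) {x : G} (hx : x ∈ h.Dh) (x2 : x * x = 1) (x1 : x ≠ 1) :
    H x := by
  obtain ⟨k, rfl | rfl⟩ := hx
  · exact h.hs.half h.ht (h.ty' k) x2 x1
  · exact h.ty' k

theorem conj_mem (h : St H S s t y) {x z : G} (hx : x ∈ S) (hz : z ∈ h.Dh) :
    x * z * x⁻¹ ∈ h.Dh := by
  obtain ⟨k, rfl | rfl⟩ := hz
  · obtain ⟨b, hb⟩ := h.cjy hx
    rw [← conj_zpow, hb, ← zpow_mul]
    exact h.y_mem _
  · obtain ⟨a, ha⟩ := h.cj hx k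
    exact ⟨a, Or.inr ha⟩

/-- Parity of the action on the non-central homologies. -/
def Pr (t y : G) (r : ℤ) (x : G) : Prop := ∃ i : ℤ, x * t * x⁻¹ = t * y ^ (2 * i + r)

theorem pr_or (h : St H S s t y) {x : G} (hx : x ∈ S) : Pr t y 0 x ∨ Pr t y 1 x := by
  obtain ⟨a, ha⟩ := h.cj0 hx
  obtain ⟨i, rfl | rfl⟩ := Int.even_or_odd' a
  · exact Or.inl ⟨i, by rwa [add_zero]⟩
  · exact Or.inr ⟨i, ha⟩

theorem pr_mul (h : St H S s t y) {x z : G} (hx : x ∈ S) {r r' q : ℤ} (m : ℤ) (k : Pr t y r x)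
    (k' : Pr t y r' z) (e : r + r' = 2 * m + q) : Pr t y q (x * z) := by
  obtain ⟨i, hi⟩ := k
  obtain ⟨j, hj⟩ := k'
  obtain ⟨b, hb⟩ := h.cjy hx
  refine ⟨i + j * (2 * b + 1) + r' * b + m, ?_⟩
  calc x * z * t * (x * z)⁻¹ = x * (z * t * z⁻¹) * x⁻¹ := by group
    _ = x * t * x⁻¹ * (x * y * x⁻¹) ^ (2 * j + r') := by rw [hj, conj_zpow]; group
    _ = _ := by
      rw [hi, hb, ← zpow_mul, mul_assoc, ← zpow_add]
      congr 2
      linear_combination e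

theorem pr_not (h : St H S s t y) {x : G} (k : Pr t y 0 x) (k' : Pr t y 1 x) : False := by
  obtain ⟨i, hi⟩ := k
  obtain ⟨j, hj⟩ := k'
  refine h.odd_ne (j - i) ?_
  have := mul_left_cancel (hi.symm.trans hj)
  rw [show 2 * (j - i) + 1 = 2 * j + 1 - (2 * i + 0) by ring, zpow_sub, this, mul_inv_cancel]

theorem pr_comm {x : G} (k : x * t = t * x) : Pr t y 0 x := ⟨0, by rw [k]; simp⟩

theorem pr_inv (h : St H S s t y) {x : G} (hx : x ∈ S) (k : Pr t y 1 x) : Pr t y 1 x⁻¹ :=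
  (h.pr_or (inv_mem hx)).resolve_left fun k' => h.pr_not (pr_comm (x := 1) (by simp))
    (by simpa using h.pr_mul hx 0 k k' (q := 1) rfl)

theorem pr_Dh (h : St H S s t y) {x : G} (hx : x ∈ h.Dh) : Pr t y 0 x := by
  have k : ∀ k : ℤ, Pr t y 0 (y ^ k) := fun k => ⟨-k, by rw [← neg_neg k, h.ct]; group⟩
  obtain ⟨a, rfl | rfl⟩ := hx
  · exact k a
  · exact h.pr_mul h.tS 0 (pr_comm rfl) (k a) rfl

theorem ex_conj (h : St H S s t y) {w : G} (hw : w ∈ S) (k : Pr t y 1 w) (a : ℤ) :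
    ∃ u ∈ S, u * t * u⁻¹ = t * y ^ a := by
  obtain ⟨j, rfl | rfl⟩ := Int.even_or_odd' a
  · exact ⟨y ^ (-j), zpow_mem h.yS _, by rw [h.ct]; group⟩
  · obtain ⟨i, hi⟩ := k
    refine ⟨y ^ (-(j - i)) * w, mul_mem (zpow_mem h.yS _) hw, ?_⟩
    calc _ = y ^ (-(j - i)) * (w * t * w⁻¹) * y ^ (j - i) := by group
      _ = _ := by rw [hi, ← mul_assoc, h.ct]; group

theorem zstar [IsSimpleGroup G] (hG : ¬ IsMulCommutative G) {S : Sylow 2 G}
    (h : St H S s t y) {w d : G} (hw : w ∈ (S : Subgroup G)) (k : Pr t y 1 w)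
    (dS : d ∈ (S : Subgroup G)) (dt : d * t = t * d) (d4 : d * d * (d * d) = 1) (d2 : d * d ≠ 1)
    (nH : ¬ H (d * d)) (cen : ∀ x ∈ (S : Subgroup G), x * (d * d) = d * d * x) : False := by
  have root0 : ∀ a : ℤ, ∃ d' ∈ (S : Subgroup G), d' * (t * y ^ a) = t * y ^ a * d' ∧
      d' * d' = d * d := fun a => by
    obtain ⟨u, hu, e⟩ := h.ex_conj hw k a
    refine ⟨u * d * u⁻¹, mul_mem (mul_mem hu dS) (inv_mem hu), ?_, ?_⟩
    · rw [← e, conj_mul, conj_mul, dt]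
    · rw [conj_mul, cen u hu, mul_inv_cancel_right]
  have root : ∀ a ∈ (S : Subgroup G), ∀ b ∈ (S : Subgroup G), H a → H b → a * b = b * a → a ≠ b →
      ∃ d' ∈ (S : Subgroup G), d' * a = a * d' ∧ d' * b = b * d' ∧ d' * d' = d * d := by
    intro a aS b bS ha hb c ne
    rcases h.all a aS ha with rfl | ⟨i, rfl⟩
    · obtain ⟨j, rfl⟩ := (h.all b bS hb).resolve_left ne.symm
      obtain ⟨d', h1, h2, h3⟩ := root0 j
      exact ⟨d', h1, h.cen _ h1, h2, h3⟩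
    obtain ⟨d', h1, h2, h3⟩ := root0 i
    refine ⟨d', h1, h2, ?_, h3⟩
    rcases h.all b bS hb with rfl | ⟨j, rfl⟩
    · exact h.cen _ h1
    rcases h.all _ (mul_mem aS bS) (h.hs.mul ha hb c ne) with e | ⟨l, e⟩
    · have : t * y ^ j = t * y ^ i * s := by rw [← e, ← mul_assoc, h.hs.sq ha, one_mul]
      rw [this, ← mul_assoc, h2, mul_assoc, h.cen _ h1, ← mul_assoc]
    · refine (h.tne ⟨-i + j - l, ?_⟩).elim
      rw [← mul_assoc, ← neg_neg i, mul_assoc t, h.ct, h.tt] at e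
      dsimp only
      rw [zpow_sub, zpow_add, e, mul_inv_cancel_right]
  obtain ⟨g, gS, ne⟩ := not_isolated hG S (mul_mem dS dS) d4 d2
  set z := d * d with hz
  set b := g * z * g⁻¹ with hb
  have Hh : H (b * z) := h.hs.baer (by rw [hb, conj_mul, d4]; group) (by simpa [hb] using d2) d4 d2
    (cen b gS) ne (fun e => nH (by simpa [hb, mul_assoc] using h.hs.conj g⁻¹ e)) nH
  obtain ⟨r, rS, hr, sr, e⟩ : ∃ r ∈ (S : Subgroup G), H r ∧ s ≠ r ∧ (b * z = s ∨ b * z = r) := by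
    by_cases e : b * z = s
    · exact ⟨t, h.tS, h.ht, h.st0, Or.inl e⟩
    · exact ⟨_, mul_mem gS (mul_mem dS dS), Hh, Ne.symm e, Or.inr rfl⟩
  obtain ⟨d', dS', c1, c2, c3⟩ := root s h.sS r rS h.hσ hr (h.cen r rS).symm sr
  have cb : ∀ x ∈ (S : Subgroup G), x * s = s * x → x * r = r * x → x * b = b * x :=
    fun x hx h1 h2 => by
      have : x * (b * z) = b * z * x := by rcases e with e | e <;> rwa [e]
      rw [mul_assoc b z x, ← cen x hx, ← mul_assoc x, ← mul_assoc b] at this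
      exact mul_right_cancel this
  have m := @mem_centralizer_singleton_iff G _
  obtain ⟨u, hu, hu'⟩ := H43.exists_conj_le_sylow_in S (H := centralizer {z})
    (X := ((S : Subgroup G) ⊓ centralizer {b}).map (MulAut.conj g⁻¹).toMonoidHom)
    (fun x hx => m.2 (cen x hx)) ((S.isPGroup'.to_le inf_le_left).map _) (by
      rintro _ ⟨x, hx, rfl⟩
      refine m.2 ?_
      calc _ = g⁻¹ * (x * b) * g := by simp [hb, mul_assoc]
        _ = _ := by rw [m.1 hx.2]; simp [hb, mul_assoc])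
  have mS : ∀ x ∈ (S : Subgroup G), x * s = s * x → x * r = r * x →
      u * g⁻¹ * x * (u * g⁻¹)⁻¹ ∈ (S : Subgroup G) := fun x hx h1 h2 => by
    have := hu' _ ⟨x, ⟨hx, m.2 (cb x hx h1 h2)⟩, rfl⟩
    simpa [mul_assoc] using this
  set v := u * g⁻¹ with hv
  have cc : ∀ {a b : G}, a * b = b * a → v * a * v⁻¹ * (v * b * v⁻¹) =
      v * b * v⁻¹ * (v * a * v⁻¹) := fun e => by rw [conj_mul, conj_mul, e]
  have s1 := mS s h.sS rfl (h.cen r rS).symm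
  have r1 := mS r rS (h.cen r rS) rfl
  have n1 : v * s * v⁻¹ ≠ v * r * v⁻¹ := by simpa using sr
  obtain ⟨d3, dS3, f1, f2, f3⟩ := root _ s1 _ r1 (h.hs.conj v h.hσ) (h.hs.conj v hr)
    (cc (h.cen r rS).symm) n1
  have e1 := h.hs.sq_eq h.p2 (h.hs.conj v h.hσ) (h.hs.conj v hr) n1 (cc (h.cen r rS).symm) s1 r1
    dS3 (mS d' dS' c1 c2) f1 f2 (cc c1) (cc c2) (by rwa [f3]) (by rwa [f3])
    (by rw [conj_mul, conj_mul, c3, d4]; group) (by rw [conj_mul, c3]; simpa using d2)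
  rw [f3, conj_mul, c3, hv] at e1
  refine ne ?_
  calc b = g * (u⁻¹ * (z * u)) * g⁻¹ := by rw [← m.1 hu, hb]; group
    _ = _ := by nth_rw 1 [e1]; group

end St

end Cfsg.Agent.OVAL
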