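/-
A simple group preserving an oval has no Baer involutions: the transfer argument.
-/
import Cfsg.Agent.OVAL.Grp2

set_option autoImplicit false
set_option linter.unusedSectionVars false

namespace Cfsg.Agent.OVAL

open Subgroup

variable {G : Type*} [Group G] [Finite G] {H : G → Prop}

namespace St

variable {S : Subgroup G} {s t y : G}

/-- A cyclic complement in the centraliser of `t`. -/
structure Cc (h : St H S s t y) (c : G) : Prop where
  cS : c ∈ S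
  ct : c * t = t * c
  nH : ∀ i : ℕ, c ^ i ∈ h.Dh → c ^ i = 1
  gen : ∀ x ∈ S, Pr t y 0 x → ∃ (i : ℕ), ∃ z ∈ h.Dh, x = z * c ^ i
  md : c * c = 1 ∨ ∃ p : ℤ, c * y * c⁻¹ = y ^ (4 * p + 1)

theorem ex_cc (h : St H S s t y) : ∃ c, h.Cc c := by
  have m := @mem_centralizer_singleton_iff G _
  obtain ⟨c, hc, k1, k2⟩ := h.hs.cyc (A := S ⊓ centralizer {t}) (h.p2.to_le inf_le_left) h.hσ h.ht
    h.st0 ⟨h.sS, m.2 (h.cen t h.tS).symm⟩ ⟨h.tS, m.2 rfl⟩ (fun x hx => h.cen x hx.1)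
    fun x hx => m.1 hx.2
  have ct : Commute c t := m.1 hc.2
  have nH : ∀ i : ℕ, c ^ i ∈ h.Dh → c ^ i = 1 := fun i hi => by_contra fun ne => by
    obtain ⟨j, -, j2, j3⟩ := ex_half h.p2 (pow_mem hc.1 i) ne
    exact k1 (i * 2 ^ j) (pow_mul c i _ ▸ h.H_of_mem (pow_mem hi _) j2 j3)
  have gen : ∀ x ∈ S, Pr t y 0 x → ∃ (i : ℕ), ∃ z ∈ h.Dh, x = z * c ^ i := by
    rintro x hx ⟨i, hi⟩
    obtain ⟨e, v, hv, k⟩ := k2 (y ^ i * x) ⟨mul_mem (zpow_mem h.yS i) hx, m.2 (by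
      calc y ^ i * x * t = y ^ (-(-i)) * (x * t * x⁻¹) * x := by group
        _ = _ := by rw [hi, ← mul_assoc, h.ct]; group)⟩
    have : Commute c v ∧ v ∈ h.Dh := by
      have cs : Commute c s := h.cen c hc.1
      rcases hv with rfl | rfl | rfl | rfl
      exacts [⟨Commute.one_right _, one_mem _⟩, ⟨cs, h.s_mem⟩, ⟨ct, h.t_mem⟩,
        ⟨cs.mul_right ct, mul_mem h.s_mem h.t_mem⟩]
    exact ⟨e, y ^ (-i) * v, mul_mem (h.y_mem _) this.2, by
      rw [mul_assoc, ← (this.1.pow_left e).eq, ← k]; group⟩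
  by_cases c2 : c * c = 1
  · exact ⟨c, hc.1, ct, nH, gen, Or.inl c2⟩
  obtain ⟨b, hb⟩ := h.cjy hc.1
  obtain ⟨p, rfl | rfl⟩ := Int.even_or_odd' b
  · exact ⟨c, hc.1, ct, nH, gen, Or.inr ⟨p, by rw [hb]; congr 1; ring⟩⟩
  have t2 : t ^ 2 = 1 := by rw [sq, h.hs.sq h.ht]
  refine ⟨c * t, mul_mem hc.1 h.tS, by rw [← mul_assoc, ct.eq], fun i hi => ?_, fun x hx k => ?_,
    Or.inr ⟨-p - 1, ?_⟩⟩
  · rw [ct.mul_pow] at hi ⊢
    have e := nH i ((mul_mem_cancel_right (pow_mem h.t_mem i)).1 hi)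
    obtain ⟨j, j1, -⟩ := ex_half h.p2 hc.1 (by rintro rfl; simp at c2)
    obtain ⟨l, rfl⟩ := orderOf_dvd_of_pow_eq_one e
    rw [e, j1, pow_succ', mul_assoc, pow_mul, t2, one_pow, one_mul]
  · obtain ⟨i, z, hz, rfl⟩ := gen x hx k
    refine ⟨i, z * (t ^ i)⁻¹, mul_mem hz (inv_mem (pow_mem h.t_mem i)), ?_⟩
    rw [ct.mul_pow, (ct.pow_pow i i).eq]; group
  · calc c * t * y * (c * t)⁻¹ = c * (t * y ^ (1 : ℤ) * t⁻¹) * c⁻¹ := by group
      _ = _ := by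
        rw [h.tyt, ← conj_zpow, hb, ← zpow_mul]; congr 1; ring

theorem comm_t {a : ℤ} {x : G} (h1 : x * (t * y ^ a) = t * y ^ a * x) (h2 : x * y = y * x) :
    x * t = t * x := by
  have := (Commute.zpow_right h2 a).eq
  rw [mul_assoc t, ← this, ← mul_assoc, ← mul_assoc] at h1
  exact mul_right_cancel h1

theorem comm_cj (h : St H S s t y) {w x : G} (hw : w ∈ S) (h1 : x * t = t * x)
    (h2 : x * y = y * x) : w * x * w⁻¹ * t = t * (w * x * w⁻¹) ∧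
      w * x * w⁻¹ * y = y * (w * x * w⁻¹) := by
  obtain ⟨a, ha⟩ := h.cj0 hw
  obtain ⟨b, hb⟩ := h.cjy (inv_mem hw)
  have e : w * x * w⁻¹ * y = y * (w * x * w⁻¹) := by
    calc _ = w * (x * (w⁻¹ * y * w⁻¹⁻¹)) * w⁻¹ := by group
      _ = w * ((w⁻¹ * y * w⁻¹⁻¹) * x) * w⁻¹ := by rw [hb, (Commute.zpow_right h2 _).eq]
      _ = _ := by group
  exact ⟨comm_t (a := a) (by rw [← ha, conj_mul, conj_mul, h1]) e, e⟩

theorem cw_mem [IsSimpleGroup G] (hG : ¬ IsMulCommutative G) {S : Sylow 2 G}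
    (h : St H S s t y) {c w : G} (hc : h.Cc c) (hw : w ∈ (S : Subgroup G)) (k : Pr t y 1 w) :
    w * c * w⁻¹ * c⁻¹ ∈ h.Dh := by
  obtain ⟨e, z, hz, he⟩ := hc.gen (w * c * w⁻¹) (mul_mem (mul_mem hw hc.cS) (inv_mem hw))
    (h.pr_mul (mul_mem hw hc.cS) 1 (h.pr_mul hw 0 k (pr_comm hc.ct) (q := 1) rfl) (h.pr_inv hw k)
      rfl)
  by_cases c2 : c * c = 1
  · obtain ⟨j, rfl | rfl⟩ := Nat.even_or_odd' e
    · rw [pow_mul, sq, c2, one_pow, mul_one] at he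
      refine mul_mem (he ▸ hz) (inv_mem ?_)
      simpa [← he, mul_assoc] using h.conj_mem (inv_mem hw) hz
    · rw [pow_succ, pow_mul, sq, c2, one_pow, one_mul] at he
      rwa [he, mul_inv_cancel_right]
  obtain ⟨p, hp⟩ := hc.md.resolve_left c2
  obtain ⟨j, j1, j2, j3⟩ := ex_half h.p2 hc.cS (by rintro rfl; simp at c2)
  rcases j with _ | j
  · exact (c2 (by simpa using j2)).elim
  have dd : c ^ 2 ^ j * c ^ 2 ^ j = c ^ 2 ^ (j + 1) := by rw [← pow_add, pow_succ, mul_two]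
  have ct : Commute c t := hc.ct
  set β := c ^ 2 ^ (j + 1) with hβ
  have βS : β ∈ (S : Subgroup G) := pow_mem hc.cS _
  have βD : β ∉ h.Dh := fun e => j3 (hc.nH _ e)
  have βt : Commute β t := ct.pow_left _
  have βc : Commute β c := (Commute.refl c).pow_left _
  have nc : w * β * w⁻¹ = β → β * y = y * β → False := fun h1 h2 => by
    have k0 : ∀ x ∈ (S : Subgroup G), Pr t y 0 x → Commute β x := fun x hx k => by
      obtain ⟨i, z, ⟨a, rfl | rfl⟩, rfl⟩ := hc.gen x hx k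
      · exact (Commute.zpow_right h2 a).mul_right (βc.pow_right i)
      · exact (βt.mul_right (Commute.zpow_right h2 a)).mul_right (βc.pow_right i)
    refine h.zstar hG hw k (pow_mem hc.cS (2 ^ j)) (ct.pow_left _).eq (by rwa [dd]) (by rwa [dd])
      (fun e => βD (h.mem_of_H βS (dd ▸ e))) fun x hx => ?_
    rw [dd]
    rcases h.pr_or hx with k' | k'
    · exact (k0 x hx k').symm
    · have := (k0 _ (mul_mem hx (inv_mem hw)) (h.pr_mul hx 1 k' (h.pr_inv hw k) rfl)).mul_right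
        (show Commute β w from (mul_inv_eq_iff_eq_mul.1 h1).symm)
      rw [inv_mul_cancel_right] at this
      exact this.symm
  have nd : c ^ 2 ^ j * y ≠ y * c ^ 2 ^ j := fun e => by
    have dS := pow_mem hc.cS (2 ^ j)
    have dS' := mul_mem (mul_mem hw dS) (inv_mem hw)
    refine nc ?_ (dd ▸ (Commute.mul_left e e).eq)
    have := h.hs.sq_eq h.p2 h.hσ h.ht h.st0 (h.cen t h.tS).symm h.sS h.tS dS' dS (h.cen _ dS')
      (h.comm_cj hw (ct.pow_left _).eq e).1 (h.cen _ dS) (ct.pow_left _).eq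
      (by rw [conj_mul, conj_mul, dd, j2]; group) (by rw [conj_mul, dd]; simpa using j3)
      (by rwa [dd]) (by rwa [dd])
    rwa [conj_mul, dd] at this
  have y2 : y * y ≠ 1 := fun e => nd (by
    rw [inv_uniq (mem_zpowers y) h.sy e (h.hs.sq h.hσ) h.y1 (h.hs.ne h.hσ)]
    exact h.cen _ (pow_mem hc.cS _))
  have cpow : ∀ i : ℕ, ∃ q : ℤ, c ^ i * y * (c ^ i)⁻¹ = y ^ (4 * q + 1) := fun i => by
    induction i with
    | zero => exact ⟨0, by simp⟩
    | succ i ih =>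
      obtain ⟨q, hq⟩ := ih
      refine ⟨4 * p * q + p + q, ?_⟩
      calc _ = c * (c ^ i * y * (c ^ i)⁻¹) * c⁻¹ := by group
        _ = _ := by rw [hq, ← conj_zpow, hp, ← zpow_mul]; congr 1; ring
  have act : w * c * w⁻¹ * y * (w * c * w⁻¹)⁻¹ = y ^ (4 * p + 1) := by
    obtain ⟨b, hb⟩ := h.cjy (inv_mem hw)
    calc _ = w * (c * (w⁻¹ * y * w⁻¹⁻¹) * c⁻¹) * w⁻¹ := by group
      _ = w * (w⁻¹ * y * w⁻¹⁻¹) ^ (4 * p + 1) * w⁻¹ := by
        rw [hb, ← conj_zpow (a := c), hp, ← zpow_mul, ← zpow_mul, mul_comm (4 * p + 1)]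
      _ = _ := by rw [conj_zpow]; group
  obtain ⟨q, hq⟩ := cpow e
  have act' : z * y ^ (4 * q + 1) * z⁻¹ = y ^ (4 * p + 1) := by rw [← act, ← hq, he]; group
  obtain ⟨i, rfl | rfl⟩ := hz
  swap
  · refine (h.two_ne y2 (p + q) ?_).elim
    have : t * y ^ (4 * q + 1) * t⁻¹ = y ^ (4 * p + 1) := by rw [← act']; group
    rw [h.tyt] at this
    rw [show 4 * (p + q) + 2 = 4 * p + 1 + (4 * q + 1) by ring, zpow_add, ← this]; group
  have wy : c ^ e * c⁻¹ * y = y * (c ^ e * c⁻¹) := by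
    have e1 : c ^ e * y * (c ^ e)⁻¹ = c * y * c⁻¹ := by rw [hq, hp, ← act']; group
    calc c ^ e * c⁻¹ * y = c⁻¹ * (c ^ e * y * (c ^ e)⁻¹) * c ^ e := by group
      _ = _ := by rw [e1]; group
  have wz : c ^ e * c⁻¹ ∈ zpowers c := mul_mem (pow_mem (mem_zpowers c) _) (inv_mem (mem_zpowers c))
  by_cases w1 : c ^ e * c⁻¹ = 1
  · rw [he, mul_assoc, w1, mul_one]; exact h.y_mem i
  exfalso
  by_cases w2 : c ^ e * c⁻¹ * (c ^ e * c⁻¹) = 1
  swap
  · obtain ⟨l, hl⟩ := mem_zp j1 wz w2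
    exact nd (hl ▸ (Commute.zpow_left wy l).eq)
  have eβ : c ^ e * c⁻¹ = β := inv_uniq wz (pow_mem (mem_zpowers c) _) w2 j2 w1 j3
  have βy : Commute β y := eβ ▸ wy
  rw [mul_inv_eq_iff_eq_mul.1 eβ] at he
  obtain ⟨b1t, b1y⟩ := h.comm_cj hw βt.eq βy.eq
  have b1S := mul_mem (mul_mem hw βS) (inv_mem hw)
  have e1 : w * β * w⁻¹ = β * s := by
    set β1 := w * β * w⁻¹ with hβ1
    have ne : β ≠ β1 := fun e => nc e.symm βy
    have cm : Commute β β1 := by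
      obtain ⟨i, z, ⟨a, rfl | rfl⟩, e⟩ := hc.gen _ b1S (pr_comm b1t) <;> rw [e]
      · exact (βy.zpow_right a).mul_right (βc.pow_right i)
      · exact (βt.mul_right (βy.zpow_right a)).mul_right (βc.pow_right i)
    have nH : ¬ H β := fun e => βD (h.mem_of_H βS e)
    rcases h.all _ (mul_mem βS b1S) (h.hs.baer j2 j3 (by rw [hβ1, conj_mul, j2]; group)
      (by simpa [hβ1] using j3) cm ne nH
      fun e => nH (by simpa [hβ1, mul_assoc] using h.hs.conj w⁻¹ e)) with e | ⟨a, e⟩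
    · rw [← e, ← mul_assoc, j2, one_mul]
    · refine (y2 ?_).elim
      have c1 : Commute (t * y ^ a) y := e ▸ βy.mul_left b1y
      have c2 : t * y ^ (1 : ℤ) * t⁻¹ = y := by
        calc _ = (t * y ^ a * y) * (t * y ^ a)⁻¹ := by group
          _ = _ := by rw [c1.eq, mul_inv_cancel_right]
      rw [h.tyt] at c2
      nth_rw 1 [← c2]; group
  obtain ⟨a, ha⟩ := h.cj0 hw
  obtain ⟨b, hb⟩ := h.cjy hw
  obtain ⟨r, z, hz, hr⟩ := hc.gen _ (mul_mem hw hw) (h.pr_mul hw 1 k k rfl)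
  obtain ⟨q', hq'⟩ := cpow r
  have act2 : z * y ^ (4 * q' + 1) * z⁻¹ = y ^ ((2 * b + 1) * (2 * b + 1)) := by
    calc _ = w * w * y * (w * w)⁻¹ := by rw [← hq', hr]; group
      _ = w * (w * y * w⁻¹) * w⁻¹ := by group
      _ = _ := by rw [hb, ← conj_zpow, hb, ← zpow_mul]
  obtain ⟨l, rfl | rfl⟩ := hz
  swap
  · refine h.two_ne y2 (q' + b * b + b) ?_
    have : t * y ^ (4 * q' + 1) * t⁻¹ = y ^ ((2 * b + 1) * (2 * b + 1)) := by rw [← act2]; group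
    rw [h.tyt] at this
    rw [show 4 * (q' + b * b + b) + 2 = (2 * b + 1) * (2 * b + 1) + (4 * q' + 1) by ring, zpow_add,
      ← this]; group
  have cy : ∀ m : ℤ, c * y ^ m * c⁻¹ = y ^ ((4 * p + 1) * m) := fun m => by
    rw [← conj_zpow, hp, ← zpow_mul]
  have wy' : ∀ m : ℤ, w * y ^ m * w⁻¹ = y ^ ((2 * b + 1) * m) := fun m => by
    rw [← conj_zpow, hb, ← zpow_mul]
  have f1 : y ^ (-(4 * p * l)) = y ^ ((2 * b + 2) * i) * s := by
    have g1 : w * w * c * (w * w)⁻¹ = y ^ (-(4 * p * l)) * c := by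
      calc _ = y ^ l * (c * y ^ (-l) * c⁻¹) * c := by rw [hr]; group
        _ = _ := by rw [cy]; group
    have g2 : w * w * c * (w * w)⁻¹ = y ^ ((2 * b + 2) * i) * s * c := by
      calc _ = w * (w * c * w⁻¹) * w⁻¹ := by group
        _ = w * y ^ i * w⁻¹ * (w * β * w⁻¹) * (w * c * w⁻¹) := by nth_rw 1 [he]; group
        _ = y ^ ((2 * b + 1) * i) * (β * (s * y ^ i) * β) * c := by rw [wy', e1, he]; group
        _ = _ := by
          rw [(Commute.mul_right (h.cen β βS) (βy.zpow_right i)).eq, mul_assoc _ β β, j2,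
            ← h.cen _ (zpow_mem h.yS i)]
          group
    exact mul_right_cancel (g1.symm.trans g2)
  have f2 : y ^ (-(2 * l)) = y ^ ((2 * b + 2) * a) := by
    have g1 : w * w * t * (w * w)⁻¹ = t * y ^ (-(2 * l)) := by
      calc _ = y ^ (-(-l)) * (c ^ r * t * (c ^ r)⁻¹) * y ^ (-l) := by rw [hr]; group
        _ = _ := by rw [(ct.pow_left r).eq, mul_inv_cancel_right, h.ct]; group
    have g2 : w * w * t * (w * w)⁻¹ = t * y ^ ((2 * b + 2) * a) := by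
      calc _ = w * (w * t * w⁻¹) * w⁻¹ := by group
        _ = w * t * w⁻¹ * (w * y ^ a * w⁻¹) := by nth_rw 1 [ha]; group
        _ = _ := by rw [ha, wy']; group
    exact mul_left_cancel (g1.symm.trans g2)
  have f3 : y ^ (2 * i) = y ^ (4 * p * a) := by
    have g1 : w * c * w⁻¹ * (t * y ^ a) * (w * c * w⁻¹)⁻¹ = t * y ^ a := by
      rw [← ha, conj_mul, ct.eq]; group
    have g2 : w * c * w⁻¹ * (t * y ^ a) * (w * c * w⁻¹)⁻¹ =
        t * y ^ a * (y ^ (4 * p * a) * (y ^ (2 * i))⁻¹) := by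
      calc _ = y ^ i * (β * (c * t * c⁻¹ * (c * y ^ a * c⁻¹)) * β⁻¹) * y ^ (-i) := by
            rw [he]; group
        _ = y ^ (-(-i)) * t * y ^ ((4 * p + 1) * a) * y ^ (-i) := by
          rw [ct.eq, mul_inv_cancel_right, cy, (βt.mul_right (βy.zpow_right _)).eq]; group
        _ = _ := by rw [h.ct]; group
    exact (mul_inv_eq_one.1 (left_eq_mul.1 (g1.symm.trans g2))).symm
  refine h.hs.ne h.hσ (left_eq_mul.1 (Eq.trans ?_ f1))
  rw [show -(4 * p * l) = -(2 * l) * (2 * p) by ring, show (2 * b + 2) * i = 2 * i * (b + 1) by ring,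
    zpow_mul y (-(2 * l)), zpow_mul y (2 * i), f2, f3, ← zpow_mul, ← zpow_mul]
  congr 1; ring

theorem comm_mem [IsSimpleGroup G] (hG : ¬ IsMulCommutative G) {S : Sylow 2 G}
    (h : St H S s t y) {c : G} (hc : h.Cc c) :
    ∀ x ∈ (S : Subgroup G), ∀ z ∈ (S : Subgroup G), x * z * x⁻¹ * z⁻¹ ∈ h.Dh := by
  obtain ⟨w, hw, k1, k2⟩ : ∃ w ∈ (S : Subgroup G), w * c * w⁻¹ * c⁻¹ ∈ h.Dh ∧
      ∀ x ∈ (S : Subgroup G), Pr t y 0 x ∨ Pr t y 0 (x * w⁻¹) := by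
    by_cases k : ∃ w ∈ (S : Subgroup G), Pr t y 1 w
    · obtain ⟨w, hw, k⟩ := k
      exact ⟨w, hw, h.cw_mem hG hc hw k, fun x hx =>
        (h.pr_or hx).imp_right fun k' => h.pr_mul hx 1 k' (h.pr_inv hw k) rfl⟩
    · exact ⟨1, one_mem _, by simp [one_mem], fun x hx =>
        Or.inl ((h.pr_or hx).resolve_right fun k' => k ⟨x, hx, k'⟩)⟩
  have hn : (h.Dh.subgroupOf (S : Subgroup G)).Normal := ⟨fun x hx g => h.conj_mem g.2 hx⟩
  let π := QuotientGroup.mk' (h.Dh.subgroupOf (S : Subgroup G))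
  have π1 : ∀ x : (S : Subgroup G), π x = 1 ↔ (x : G) ∈ h.Dh := fun x => QuotientGroup.eq_one_iff x
  have cm : ∀ x z : (S : Subgroup G), Commute (π x) (π z) ↔ (x : G) * z * x⁻¹ * z⁻¹ ∈ h.Dh :=
    fun x z => by
      rw [← commutatorElement_eq_one_iff_commute, ← map_commutatorElement, π1]; rfl
  have cw := (cm ⟨w, hw⟩ ⟨c, hc.cS⟩).2 k1
  have g0 : ∀ x : (S : Subgroup G), Pr t y 0 x → ∃ i : ℕ, π x = π ⟨c, hc.cS⟩ ^ i := fun x k => by
    obtain ⟨i, z, hz, e⟩ := hc.gen x x.2 k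
    refine ⟨i, ?_⟩
    rw [← mul_inv_eq_one, ← map_pow, ← map_inv, ← map_mul, π1]
    simpa [e] using hz
  have g1 : ∀ x : (S : Subgroup G), ∃ i j : ℕ, π x = π ⟨c, hc.cS⟩ ^ i * π ⟨w, hw⟩ ^ j := fun x => by
    rcases k2 x x.2 with k | k
    · obtain ⟨i, hi⟩ := g0 x k
      exact ⟨i, 0, by rw [hi, pow_zero, mul_one]⟩
    · obtain ⟨i, hi⟩ := g0 (x * (⟨w, hw⟩ : (S : Subgroup G))⁻¹) k
      exact ⟨i, 1, by rw [← hi, pow_one, ← map_mul, inv_mul_cancel_right]⟩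
  intro x hx z hz
  refine (cm ⟨x, hx⟩ ⟨z, hz⟩).1 ?_
  obtain ⟨i, j, e⟩ := g1 ⟨x, hx⟩
  obtain ⟨i', j', e'⟩ := g1 ⟨z, hz⟩
  rw [e, e']
  exact (((Commute.refl _).pow_pow _ _).mul_right (cw.symm.pow_pow _ _)).mul_left
    ((cw.pow_pow _ _).mul_right ((Commute.refl _).pow_pow _ _))

/-- An even element outside the dihedral group whose square lies in it. -/
theorem ev_form (h : St H S s t y) {c x : G} (hc : h.Cc c) (hx : x ∈ S) (k : Pr t y 0 x)
    (x2 : x * x ∈ h.Dh) (xD : x ∉ h.Dh) :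
    ∃ β ∈ zpowers c, β * β = 1 ∧ β ∉ h.Dh ∧ ∃ z ∈ h.Dh, x = z * β := by
  obtain ⟨i, z, hz, rfl⟩ := hc.gen x hx k
  refine ⟨c ^ i, pow_mem (mem_zpowers c) i, ?_, fun e => xD (mul_mem hz e), z, hz, rfl⟩
  rw [← pow_add]
  refine hc.nH _ ?_
  have := mul_mem (inv_mem (mul_mem hz (h.conj_mem (pow_mem hc.cS i) hz))) x2
  convert this using 1
  group

theorem od_inv (h : St H S s t y) {b : G} (hb : b ∈ S) (b2 : b * b = 1) (k : Pr t y 1 b) :
    b * y * b⁻¹ = y⁻¹ := by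
  obtain ⟨i, hi⟩ := k
  obtain ⟨m, hm⟩ := h.cjy hb
  obtain ⟨e, he⟩ := ord_two_pow h.p2 h.yS
  have bi : b⁻¹ = b := inv_eq_of_mul_eq_one_left b2
  have : t = t * y ^ ((2 * m + 2) * (2 * i + 1)) := by
    calc t = b * b * t * (b * b)⁻¹ := by rw [b2]; group
      _ = b * (b * t * b⁻¹) * b⁻¹ := by group
      _ = b * t * b⁻¹ * (b * y * b⁻¹) ^ (2 * i + 1) := by nth_rw 1 [hi]; rw [conj_zpow]; group
      _ = _ := by rw [hi, hm, ← zpow_mul]; group
  have := odd_cancel he (left_eq_mul.1 this)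
  rw [hm, eq_inv_iff_mul_eq_one, ← this]; group

theorem same (h : St H S s t y) {c b b' : G} (hc : h.Cc c)
    (hcm : ∀ x ∈ S, ∀ z ∈ S, x * z * x⁻¹ * z⁻¹ ∈ h.Dh) (hb : b ∈ S) (hb' : b' ∈ S)
    (b2 : b * b = 1) (b2' : b' * b' = 1) (bD : b ∉ h.Dh) (bD' : b' ∉ h.Dh)
    (k : Pr t y 0 b ∧ Pr t y 0 b' ∨ Pr t y 1 b ∧ Pr t y 1 b') : b * b' ∈ h.Dh := by
  rcases k with ⟨k, k'⟩ | ⟨k, k'⟩
  · obtain ⟨β, h1, h2, h3, z, hz, rfl⟩ := h.ev_form hc hb k (b2 ▸ one_mem _) bD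
    obtain ⟨β', h1', h2', h3', z', hz', rfl⟩ := h.ev_form hc hb' k' (b2' ▸ one_mem _) bD'
    obtain rfl := inv_uniq h1 h1' h2 h2' (fun e => h3 (e ▸ one_mem _)) fun e => h3' (e ▸ one_mem _)
    convert mul_mem hz (h.conj_mem (zpowers_le.2 hc.cS h1) hz') using 1
    rw [inv_eq_of_mul_eq_one_left h2]; group
  by_contra zD
  have bi : b⁻¹ = b := inv_eq_of_mul_eq_one_left b2
  have bi' : b'⁻¹ = b' := inv_eq_of_mul_eq_one_left b2'
  obtain ⟨β, h1, h2, h3, z, hz, e⟩ := h.ev_form hc (mul_mem hb hb') (h.pr_mul hb 1 k k' rfl)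
    (by simpa only [bi, bi', mul_assoc] using hcm b hb b' hb') zD
  have βS := zpowers_le.2 hc.cS h1
  have βt : Commute β t := by
    obtain ⟨i, rfl⟩ := h1
    exact Commute.zpow_left hc.ct i
  obtain ⟨u, i, uS, u2, uD, ut, hu⟩ : ∃ (u : G) (i : ℤ), u ∈ S ∧ u * u = 1 ∧ u ∉ h.Dh ∧
      u * t = t * u ∧ b * b' = y ^ i * u := by
    obtain ⟨i, rfl | rfl⟩ := hz
    · exact ⟨β, i, βS, h2, h3, βt, e⟩
    · exact ⟨t * β, -i, mul_mem h.tS βS, by
        rw [βt.mul_mul_mul_comm, h2, h.hs.sq h.ht, one_mul],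
        fun e => h3 ((mul_mem_cancel_left h.t_mem).1 e), by rw [mul_assoc, βt.eq], by
        rw [e, ← h.ct, mul_assoc]⟩
  have i1 := h.od_inv hb b2 k
  have uy : Commute u y := by
    have : b * b' * y * (b * b')⁻¹ = y := by
      calc _ = b * (b' * y * b'⁻¹) * b⁻¹ := by group
        _ = (b * y * b⁻¹)⁻¹ := by rw [h.od_inv hb' b2' k']; group
        _ = _ := by rw [i1, inv_inv]
    rw [hu] at this
    calc u * y = y ^ (-i) * (y ^ i * u * y * (y ^ i * u)⁻¹) * y ^ i * u := by group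
      _ = _ := by rw [this]; group
  have e1 : b' = b * y ^ i * u := by rw [mul_assoc, ← hu, ← mul_assoc, b2, one_mul]
  have e2 : b * u = u * b := by
    have g1 : b * y ^ i * b⁻¹ = y ^ (-i) := by rw [← conj_zpow, i1, inv_zpow']
    have : b * u * b⁻¹ * u = 1 := by
      calc _ = y ^ i * (y ^ (-i) * (b * u * b⁻¹)) * u := by group
        _ = y ^ i * (b * y ^ i * u * b * y ^ i * u) * (y ^ i * u)⁻¹ * u := by
          rw [← g1, bi]; simp only [mul_assoc, ← mul_assoc b b, b2, one_mul]; group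
        _ = 1 := by
          rw [show b * y ^ i * u * b * y ^ i * u = b' * b' by rw [e1]; group, b2',
            ← (uy.zpow_right i).eq]
          group
    rw [← mul_inv_eq_iff_eq_mul, eq_inv_of_mul_eq_one_left this, inv_eq_of_mul_eq_one_left u2]
  have pu : Pr t y 0 u := pr_comm ut
  have := h.mem_of_H (mul_mem hb uS) (h.hs.baer b2 (fun e => bD (e ▸ one_mem _)) u2
    (fun e => uD (e ▸ one_mem _)) e2 (fun e => h.pr_not pu (e ▸ k))
    (fun e => bD (h.mem_of_H hb e)) fun e => uD (h.mem_of_H uS e))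
  exact h.pr_not (h.pr_Dh this) (h.pr_mul hb 0 k pu rfl)

end St

theorem HS.no_baer [IsSimpleGroup G] (hG : ¬ IsMulCommutative G) (h : HS H) {b : G}
    (b2 : b * b = 1) (b1 : b ≠ 1) : H b := by
  by_contra nH
  obtain ⟨S, hS⟩ := (IsPGroup.of_card (p := 2) (n := 1) (G := zpowers b) (by
    rw [Nat.card_zpowers, orderOf_eq_prime (p := 2) (by rw [pow_two, b2]) b1]; rfl)).exists_le_sylow
  have hb := hS (mem_zpowers b)
  obtain ⟨s, t, y, k⟩ := ex_st hG h S hb b2 b1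
  obtain ⟨c, hc⟩ := k.ex_cc
  have cm := k.comm_mem hG hc
  have B : ∀ g : G, g * b * g⁻¹ * (g * b * g⁻¹) = 1 ∧ g * b * g⁻¹ ∉ k.Dh := fun g =>
    have e : g * b * g⁻¹ * (g * b * g⁻¹) = 1 := by rw [conj_mul, b2]; group
    ⟨e, fun m => nH (by simpa [mul_assoc] using h.conj g⁻¹ (k.H_of_mem m e (by simpa using b1)))⟩
  have bD : b ∉ k.Dh := by simpa using (B 1).2
  by_cases e : ∀ g : G, g * b * g⁻¹ ∈ (S : Subgroup G) → g * b * g⁻¹ * b ∈ k.Dh
  · exact transfer_two hG S cm hb hb b2 b2 bD bD fun g m => Or.inl (e g m)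
  push Not at e
  obtain ⟨g, m, e⟩ := e
  refine transfer_two hG S cm hb m b2 (B g).1 bD (B g).2 fun g' m' => ?_
  have s1 := k.same hc cm m hb (B g).1 b2 (B g).2 bD
  have s2 := k.same hc cm m' hb (B g').1 b2 (B g').2 bD
  have s3 := k.same hc cm m' m (B g').1 (B g).1 (B g').2 (B g).2
  have := k.pr_or hb
  have := k.pr_or m
  have := k.pr_or m'
  tauto

end Cfsg.Agent.OVAL
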